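import Cfsg.Agent.H49.TensorSignAbs

/-!
Every such module has coordinates in the tensor model in which an odd element inverting the three
cycle is a transvection pair.
-/

set_option autoImplicit false
set_option maxRecDepth 20000
set_option synthInstance.maxSize 4000
set_option synthInstance.maxHeartbeats 200000
set_option linter.style.haveILetI false
set_option maxHeartbeats 1000000

namespace Cfsg.Agent.H49.TS

open Equiv

theorem act_comp (k l : K) {g : W → W} (h : W → W) (hg : Symp g) (v : V) :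
    act k g (act l h v) = act (mulK k l) (g ∘ h) v := by
  simp only [act, appK, mulK, hg.add, hg.smul, Function.comp, smul_add, smul_smul, add_smul, Prod.mk.injEq]
  constructor <;> abel

theorem detK_mul : ∀ k l : K, detK (mulK k l) = detK k * detK l := by decide +kernel

theorem mulK_one : ∀ k : K, mulK k oneK = k ∧ mulK oneK k = k := by decide +kernel

theorem act_one (v : V) : act oneK id v = v := appK_one v

namespace Rep

variable {Vb : Type*} [AddCommGroup Vb] (R : Rep Vb)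

theorem A_three {s : S6} (hs : Perm.sign s = 1) (h3 : s ^ 3 = 1) (v : Vb) :
    R.A s (R.A s (R.A s v)) = v := by
  have h := congrArg R.A h3
  rw [R.A_pow hs, show R.A 1 = 1 from R.map_one] at h
  exact DFunLike.congr_fun h v

theorem δ_half (x : Vb) : R.δ x + R.δ (R.δ x) = x := by
  calc R.δ x + R.δ (R.δ x) = R.δ x + (x + R.δ x) := by rw [R.δ_sq]
    _ = x + (R.δ x + R.δ x) := by abel
    _ = x := by rw [R.two, add_zero]

/-- A vector of weight `(1, 0)` from one of a neighbouring weight. -/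
theorem normalise {T : Tup} (hT : T.Ok) {w : Vb} (hw : w ≠ 0)
    (h : (R.A T.a w = R.δ w ∧ R.A T.b w = w) ∨ (R.A T.a w = R.δ (R.δ w) ∧ R.A T.b w = w) ∨
      (R.A T.a w = w ∧ R.A T.b w = R.δ w) ∨ (R.A T.a w = w ∧ R.A T.b w = R.δ (R.δ w))) :
    ∃ e, R.Weight T e := by
  have fz : ∀ u : Vb, R.A T.f u = 0 → u = 0 := by
    intro u hu
    have h := congrArg R.A hT.f4
    rw [R.A_pow hT.ef, show R.A 1 = 1 from R.map_one] at h
    have h1 : R.A T.f (R.A T.f (R.A T.f (R.A T.f u))) = u := DFunLike.congr_fun h u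
    rwa [hu, map_zero, map_zero, map_zero, eq_comm] at h1
  have dA := R.Ad T.f hT.ef
  have db := R.Ad T.b hT.eb
  have s02 : ∀ u, u ≠ 0 → R.A T.a u = u → R.A T.b u = R.δ (R.δ u) → R.Weight T (R.A T.f u) := by
    intro u hu ha hb
    refine ⟨fun e => hu (fz _ e), ?_, ?_⟩
    · rw [R.af_apply hT, hb, db, db, hb, R.δ_cube, dA]
    · rw [R.bf_apply hT, ha]
  have s20 : ∀ u, u ≠ 0 → R.A T.a u = R.δ (R.δ u) → R.A T.b u = u → ∃ e, R.Weight T e := by
    intro u hu ha hb
    refine ⟨_, s02 (R.A T.f u) (fun e => hu (fz _ e)) ?_ ?_⟩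
    · rw [R.af_apply hT, hb, hb]
    · rw [R.bf_apply hT, ha, dA, dA]
  rcases h with ⟨ha, hb⟩ | ⟨ha, hb⟩ | ⟨ha, hb⟩ | ⟨ha, hb⟩
  · exact ⟨w, hw, ha, hb⟩
  · exact s20 w hw ha hb
  · refine s20 (R.A T.f w) (fun e => hw (fz _ e)) ?_ ?_
    · rw [R.af_apply hT, hb, db, hb, dA, dA]
    · rw [R.bf_apply hT, ha]
  · exact ⟨_, s02 w hw ha hb⟩

/-- One of the two tuples has a weight vector. -/
theorem exists_weight : (∃ e, R.Weight tup₁ e) ∨ (∃ e, R.Weight tup₂ e) := by
  have ea : Perm.sign ga = 1 := ok₁.ea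
  have eb : Perm.sign gb = 1 := ok₁.eb
  have a3 := R.A_three ea ok₁.a3
  have b3 := R.A_three eb ok₁.b3
  have dA := R.Ad ga ea
  have dB := R.Ad gb eb
  have hab : ∀ v, R.A ga (R.A gb v) = R.A gb (R.A ga v) := by
    intro v
    have h := congrArg R.A ok₁.ab
    change R.A (ga * gb) = R.A (gb * ga) at h
    rw [R.A_mul ea eb, R.A_mul eb ea] at h
    exact DFunLike.congr_fun h v
  obtain ⟨v, hv⟩ : ∃ v, R.A ga v ≠ v := by
    by_contra! h
    have := R.faithful _ (even_right ea) (AddMonoidHom.ext h)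
    exact absurd (congrArg Prod.snd this) (show ga ≠ 1 by decide +kernel)
  obtain ⟨u, hu0, hu⟩ : ∃ u, u ≠ 0 ∧ (R.A ga u = R.δ u ∨ R.A ga u = R.δ (R.δ u)) := by
    by_contra! hcon
    have h1 : v + R.δ (R.δ (R.A ga v)) + R.δ (R.A ga (R.A ga v)) = 0 := by
      by_contra hne
      refine (hcon _ hne).1 ?_
      simp only [map_add, dA, a3, R.δ_cube]
      abel
    have h2 : v + R.δ (R.A ga v) + R.δ (R.δ (R.A ga (R.A ga v))) = 0 := by
      by_contra hne
      refine (hcon _ hne).2 ?_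
      simp only [map_add, dA, a3, R.δ_cube]
      abel
    have h3 : R.A ga v + R.A ga (R.A ga v) = 0 := by
      calc R.A ga v + R.A ga (R.A ga v)
          = (v + v) + (R.δ (R.A ga v) + R.δ (R.δ (R.A ga v))) +
            (R.δ (R.A ga (R.A ga v)) + R.δ (R.δ (R.A ga (R.A ga v)))) := by
            rw [R.two, R.δ_half, R.δ_half, zero_add]
        _ = (v + R.δ (R.δ (R.A ga v)) + R.δ (R.A ga (R.A ga v))) +
            (v + R.δ (R.A ga v) + R.δ (R.δ (R.A ga (R.A ga v)))) := by abel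
        _ = 0 := by rw [h1, h2, add_zero]
    have h4 : R.A ga (R.A ga v) = R.A ga v := by
      calc R.A ga (R.A ga v) = R.A ga v + R.A ga v + R.A ga (R.A ga v) := by rw [R.two, zero_add]
        _ = R.A ga v := by rw [add_assoc, h3, add_zero]
    have h5 : R.A ga v = v := by
      calc R.A ga v = R.A ga (R.A ga v) := h4.symm
        _ = R.A ga (R.A ga (R.A ga v)) := by rw [h4, h4]
        _ = v := a3 v
    exact hv h5
  -- refine by the second element
  obtain ⟨w, hw0, hwb, hwa⟩ : ∃ w, w ≠ 0 ∧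
      (R.A gb w = w ∨ R.A gb w = R.δ w ∨ R.A gb w = R.δ (R.δ w)) ∧
      (R.A ga w = R.δ w ∨ R.A ga w = R.δ (R.δ w)) := by
    have keep : ∀ c0 c1 c2 : Vb, c0 + c1 + c2 = u → c0 ≠ 0 ∨ c1 ≠ 0 ∨ c2 ≠ 0 := by
      intro c0 c1 c2 h
      by_contra! hc
      rw [hc.1, hc.2.1, hc.2.2] at h
      simp only [add_zero] at h
      exact hu0 h.symm
    rcases keep (u + R.A gb u + R.A gb (R.A gb u))
      (u + R.δ (R.δ (R.A gb u)) + R.δ (R.A gb (R.A gb u)))
      (u + R.δ (R.A gb u) + R.δ (R.δ (R.A gb (R.A gb u))))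
      (by
        calc _ = (u + u) + u + (R.A gb u + (R.δ (R.A gb u) + R.δ (R.δ (R.A gb u)))) +
              (R.A gb (R.A gb u) + (R.δ (R.A gb (R.A gb u)) + R.δ (R.δ (R.A gb (R.A gb u))))) := by abel
          _ = u := by rw [R.δ_half, R.δ_half, R.two, R.two, R.two]; abel) with h | h | h
    · refine ⟨_, h, Or.inl ?_, hu.imp (fun hu => ?_) (fun hu => ?_)⟩
      · simp only [map_add, b3]; abel
      · simp only [map_add, hab, hu, dB]
      · simp only [map_add, hab, hu, dB]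
    · refine ⟨_, h, Or.inr (Or.inl ?_), hu.imp (fun hu => ?_) (fun hu => ?_)⟩
      · simp only [map_add, dB, b3, R.δ_cube]; abel
      · simp only [map_add, dA, hab, hu, dB]
      · simp only [map_add, dA, hab, hu, dB]
    · refine ⟨_, h, Or.inr (Or.inr ?_), hu.imp (fun hu => ?_) (fun hu => ?_)⟩
      · simp only [map_add, dB, b3, R.δ_cube]; abel
      · simp only [map_add, dA, hab, hu, dB]
      · simp only [map_add, dA, hab, hu, dB]
  rcases hwb with hb | hb | hb
  · refine Or.inl (R.normalise ok₁ hw0 ?_)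
    rcases hwa with ha | ha
    exacts [Or.inl ⟨ha, hb⟩, Or.inr (Or.inl ⟨ha, hb⟩)]
  all_goals
    refine Or.inr (R.normalise ok₂ hw0 ?_)
    have ea2 : ga⁻¹ = ga * ga := by decide +kernel
    have hA : R.A tup₂.a w = R.A ga (R.A gb w) := by
      show R.A (ga * gb) w = _
      rw [R.A_mul ea eb]; rfl
    have hB : R.A tup₂.b w = R.A ga (R.A ga (R.A gb w)) := by
      show R.A (ga⁻¹ * gb) w = _
      rw [ea2, R.A_mul (by rw [_root_.map_mul, ea, mul_one]) eb, R.A_mul ea ea]; rfl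
    rcases hwa with ha | ha <;> simp only [hA, hB, hb, dA, ha, R.δ_cube] <;> tauto

/-- The odd element. -/
def τ (T : Tup) : AddMonoid.End Vb := R.ψ (swap 1 2, T.t)

theorem even_odd {T : Tup} (hT : T.Ok) : Even2 (swap (1 : Fin 3) 2, T.t) := by
  show Perm.sign (swap (1 : Fin 3) 2) = Perm.sign T.t
  rw [Perm.sign_swap (by decide), hT.et]

variable {T : Tup} (hT : T.Ok)
include hT

theorem τ_δ (v : Vb) : R.τ T (R.δ v) = R.δ (R.δ (R.τ T v)) := by
  have e : R.τ T * R.δ = R.δ * R.δ * R.τ T := by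
    rw [τ, δ, ← R.map_mul _ _ (Rep.even_odd hT) even_rot, ← R.map_mul _ _ even_rot even_rot,
      ← R.map_mul _ _ (even_rot.mul even_rot) (Rep.even_odd hT)]
    congr 1
    simp only [Prod.mk_mul_mk, one_mul, mul_one, Prod.mk.injEq, and_true]
    decide +kernel
  exact DFunLike.congr_fun e v

theorem τ_A {s r : S6} (hs : Perm.sign s = 1) (hr : Perm.sign r = 1) (h : T.t * s = r * T.t) (v : Vb) :
    R.τ T (R.A s v) = R.A r (R.τ T v) := by
  have e : R.τ T * R.A s = R.A r * R.τ T := by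
    rw [τ, A, A, ← R.map_mul _ _ (Rep.even_odd hT) (even_right hs), ← R.map_mul _ _ (even_right hr) (Rep.even_odd hT)]
    simp only [Prod.mk_mul_mk, one_mul, mul_one, h]
  exact DFunLike.congr_fun e v

theorem τ_ne_zero {v : Vb} (hv : v ≠ 0) : R.τ T v ≠ 0 := by
  intro h
  apply hv
  have e : R.τ T * R.τ T = 1 := by
    rw [τ, ← R.map_mul _ _ (Rep.even_odd hT) (Rep.even_odd hT), ← R.map_one]
    simp only [Prod.mk_mul_mk, hT.t2, swap_mul_self]
    rfl
  have := DFunLike.congr_fun e v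
  change R.τ T (R.τ T v) = v at this
  rw [← this, h, map_zero]

/-- The weight vector may be taken fixed by the odd element. -/
theorem exists_fixed_weight {e : Vb} (he : R.Weight T e) : ∃ e', R.Weight T e' ∧ R.τ T e' = e' := by
  have ha : R.A T.a (R.τ T e) = R.δ (R.τ T e) := by
    have h1 : T.t * (T.a * T.a) = T.a * T.t := hT.ta.symm
    rw [← R.τ_A hT (by rw [_root_.map_mul, hT.ea, mul_one]) hT.ea h1, R.A_mul hT.ea hT.ea]
    show R.τ T (R.A T.a (R.A T.a e)) = _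
    rw [he.2.1, R.Ad _ hT.ea, he.2.1, R.τ_δ hT, R.τ_δ hT, R.δ_cube]
  have hb : R.A T.b (R.τ T e) = R.τ T e := by
    rw [← R.τ_A hT hT.eb hT.eb hT.tb.symm, he.2.2]
  obtain ⟨hinj, hsur⟩ := R.E_bijective hT he
  obtain ⟨x, hx⟩ := hsur (R.τ T e)
  have hx0 : x ≠ 0 := by
    rintro rfl
    apply R.τ_ne_zero hT he.1
    rw [← hx]
    simp [E, S, sel]
  have hxa : aX x = dX x := hinj (by rw [← R.E_a hT he, R.E_d, hx, ha])
  have hxb : bX x = x := hinj (by rw [← R.E_b hT he, hx, hb])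
  have hm := weight_line x hx0 hxa hxb
  have dz : ∀ u : Vb, u ≠ 0 → R.δ u ≠ 0 := fun u hu h => hu (by rw [← R.δ_cube u, h, map_zero, map_zero])
  have da := R.Ad T.a hT.ea
  have db := R.Ad T.b hT.eb
  simp only [List.mem_cons, List.not_mem_nil, or_false] at hm
  rcases hm with rfl | rfl | rfl
  · rw [(R.E_basis T e).1] at hx
    exact ⟨e, he, hx.symm⟩
  · rw [R.E_d, (R.E_basis T e).1] at hx
    refine ⟨R.δ (R.δ e), ⟨dz _ (dz _ he.1), ?_, ?_⟩, ?_⟩
    · rw [da, da, he.2.1]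
    · rw [db, db, he.2.2]
    · rw [R.τ_δ hT, R.τ_δ hT, ← hx, R.δ_cube]
  · rw [R.E_d, R.E_d, (R.E_basis T e).1] at hx
    refine ⟨R.δ e, ⟨dz _ he.1, ?_, ?_⟩, ?_⟩
    · rw [da, he.2.1]
    · rw [db, he.2.2]
    · rw [R.τ_δ hT, ← hx, R.δ_cube]

theorem E_t {e : Vb} (he : R.Weight T e) (hfix : R.τ T e = e) (x : X) :
    R.τ T (R.E T e x) = R.E T e (tX x) := by
  obtain ⟨b1, b2, b3, b4, -, -, -, -⟩ := R.E_basis T e
  have step : ∀ y, R.τ T (R.A T.f (R.E T e y)) =
      R.A T.f (R.A T.f (R.A T.f (R.A T.a (R.A T.b (R.A T.b (R.τ T (R.E T e y))))))) := by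
    intro y
    have ev : ∀ {s r : S6}, Perm.sign s = 1 → Perm.sign r = 1 → Perm.sign (s * r) = 1 :=
      fun hs hr => by rw [_root_.map_mul, hs, hr, mul_one]
    rw [R.τ_A hT hT.ef (ev (ev (ev (ev (ev hT.ef hT.ef) hT.ef) hT.ea) hT.eb) hT.eb) hT.tf,
      R.A_mul (ev (ev (ev (ev hT.ef hT.ef) hT.ef) hT.ea) hT.eb) hT.eb,
      R.A_mul (ev (ev (ev hT.ef hT.ef) hT.ef) hT.ea) hT.eb,
      R.A_mul (ev (ev hT.ef hT.ef) hT.ef) hT.ea, R.A_mul (ev hT.ef hT.ef) hT.ef, R.A_mul hT.ef hT.ef]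
    rfl
  have t1 : R.τ T (R.E T e e1) = R.E T e (tX e1) := by
    rw [b1, hfix, show tX e1 = e1 by decide +kernel, b1]
  have next' : ∀ u, R.τ T (R.E T e u) = R.E T e (tX u) →
      tX (fX u) = fX (fX (fX (aX (bX (bX (tX u)))))) →
      R.τ T (R.E T e (fX u)) = R.E T e (tX (fX u)) := fun u hu hm => by
    rw [← R.E_f hT he, step, hu, R.E_b hT he, R.E_b hT he, R.E_a hT he, R.E_f hT he, R.E_f hT he,
      R.E_f hT he, hm]
  have t2 : R.τ T (R.E T e e2) = R.E T e (tX e2) := next' e1 t1 (by decide +kernel)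
  have t3 : R.τ T (R.E T e e3) = R.E T e (tX e3) := next' e2 t2 (by decide +kernel)
  have t4 : R.τ T (R.E T e e4) = R.E T e (tX e4) := next' e3 t3 (by decide +kernel)
  have hd : ∀ u ∈ [e1, e2, e3, e4], tX (dX u) = dX (dX (tX u)) := by decide +kernel
  refine ext8 (G := fun x => R.τ T (R.E T e x)) (H := fun x => R.E T e (tX x))
    (fun a b => by simp only [R.E_add, map_add]) (fun a b => by simp only [tX_add, R.E_add]) ?_ x
  intro u hu
  have hu' : R.τ T (R.E T e u) = R.E T e (tX u) := by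
    simp only [List.mem_cons, List.not_mem_nil, or_false] at hu
    rcases hu with rfl | rfl | rfl | rfl
    exacts [t1, t2, t3, t4]
  refine ⟨hu', ?_⟩
  rw [hd u hu]
  simp only [R.E_d, R.τ_δ hT, hu']

theorem iter_eq {e : Vb} (L : AddMonoid.End Vb) (M : X → X)
    (h : ∀ x, L (R.E T e x) = R.E T e (M x)) (n : ℕ) (x : X) :
    (L ^ n) (R.E T e x) = R.E T e (M^[n] x) := by
  induction n generalizing x with
  | zero => rfl
  | succ n ih =>
    rw [pow_succ, Function.iterate_succ_apply]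
    show (L ^ n) (L (R.E T e x)) = _
    rw [h, ih]

/-- The column of the inverting involution is forced by its relations. -/
theorem column {e : Vb} (he : R.Weight T e) (n m : ℕ) (c : X)
    (h1 : (T.h * T.a) ^ n = 1) (h2 : (T.h * T.a * T.b) ^ m = 1)
    (huniq : ∀ v : X, hX v (hX v e1) = e1 →
      (∀ u ∈ [e1, e2, e3, e4], (fun x => hX v (aX x))^[n] u = u) →
      (∀ u ∈ [e1, e2, e3, e4], (fun x => hX v (aX (bX x)))^[m] u = u) → v = c) (x : X) :
    R.A T.h (R.E T e x) = R.E T e (hX c x) := by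
  obtain ⟨hinj, hsur⟩ := R.E_bijective hT he
  obtain ⟨v, hv⟩ := hsur (R.A T.h e)
  have H := fun x => R.E_h hT he x v hv.symm
  have eha : Perm.sign (T.h * T.a) = 1 := by rw [_root_.map_mul, hT.eh, hT.ea, one_mul]
  have ehab : Perm.sign (T.h * T.a * T.b) = 1 := by rw [_root_.map_mul, eha, hT.eb, one_mul]
  have r1 : ∀ u, (fun x => hX v (aX x))^[n] u = u := by
    intro u
    apply hinj
    rw [← R.iter_eq hT (R.A (T.h * T.a)) _ (fun x => by
      rw [R.A_mul hT.eh hT.ea]; show R.A T.h (R.A T.a _) = _; rw [R.E_a hT he, H]),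
      ← R.A_pow eha, h1, show R.A 1 = 1 from R.map_one]
    rfl
  have r2 : ∀ u, (fun x => hX v (aX (bX x)))^[m] u = u := by
    intro u
    apply hinj
    rw [← R.iter_eq hT (R.A (T.h * T.a * T.b)) _ (fun x => by
      rw [R.A_mul eha hT.eb, R.A_mul hT.eh hT.ea]
      show R.A T.h (R.A T.a (R.A T.b _)) = _
      rw [R.E_b hT he, R.E_a hT he, H]),
      ← R.A_pow ehab, h2, show R.A 1 = 1 from R.map_one]
    rfl
  have r0 : hX v (hX v e1) = e1 := by
    apply hinj
    rw [← H, ← H]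
    have hh := congrArg R.A hT.h2
    rw [R.A_mul hT.eh hT.eh, show R.A 1 = 1 from R.map_one] at hh
    exact DFunLike.congr_fun hh _
  rw [← huniq v r0 (fun u _ => r1 u) (fun u _ => r2 u)]
  exact H x

end Rep

/-- Coordinates in the tensor model for the data. -/
structure Coords {Vb : Type*} [AddCommGroup Vb] (R : Rep Vb) (χ : Vb → V) : Prop where
  bij : Function.Bijective χ
  add : ∀ x y, χ (x + y) = χ x + χ y
  quad : ∀ x, qV (χ x) = R.q x
  rot : ∀ x, χ (R.δ x) = act kD id (χ x)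
  acts : ∀ p, Even2 p → ∃ k g, detK k = 1 ∧ Symp g ∧ ∀ x, χ (R.ψ p x) = act k g (χ x)
  transv : ∀ u : W, u ≠ 0 → ∃ p, Even2 p ∧ ∀ x, χ (R.ψ p x) = act kT (tv u) (χ x)

/-- The pairs acting as a pair. -/
def GoodP {Vb : Type*} [AddCommGroup Vb] (R : Rep Vb) (χ : Vb → V) (p : S3 × S6) : Prop :=
  ∃ k g, detK k = 1 ∧ Symp g ∧ ∀ x, χ (R.ψ p x) = act k g (χ x)

theorem GoodP.mul {Vb : Type*} [AddCommGroup Vb] {R : Rep Vb} {χ : Vb → V} {p r : S3 × S6}
    (hp : Even2 p) (hr : Even2 r) (h : GoodP R χ p) (h' : GoodP R χ r) : GoodP R χ (p * r) := by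
  obtain ⟨k, g, hk, hg, a⟩ := h
  obtain ⟨l, g', hl, hg', a'⟩ := h'
  refine ⟨mulK k l, g ∘ g', by rw [detK_mul, hk, hl, one_mul], hg.comp hg', fun x => ?_⟩
  rw [R.map_mul p r hp hr]
  show χ (R.ψ p (R.ψ r x)) = _
  rw [a, a', act_comp k l g' hg]

theorem coords_of_tup {Vb : Type*} [AddCommGroup Vb] (R : Rep Vb) {T : Tup} (hT : T.Ok) (c : X)
    (hsh : Symp (gOf (hX c))) (hth : TensorMap (hX c) oneK)
    (horb : ∀ u : W, u ≠ 0 → u ∈ (grow (gens c))^[6] [vc])
    (hcol : ∀ {e : Vb}, R.Weight T e → ∀ x, R.A T.h (R.E T e x) = R.E T e (hX c x))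
    (r : S6) (h9 : (pows9 T.a T.b).card = 9)
    (h9c : ∀ x ∈ pows9 T.a T.b, ∀ y ∈ pows9 T.a T.b, x * y ∈ pows9 T.a T.b)
    (hf : orderOf T.f = 4) (hr : orderOf r = 5) (hrmem : r ∈ Submonoid.closure ({T.a, T.b, T.h} : Set S6))
    (hw : ∃ e, R.Weight T e) : ∃ χ, Coords R χ := by
  classical
  obtain ⟨e₀, he₀⟩ := hw
  obtain ⟨e, he, hfix⟩ := R.exists_fixed_weight hT he₀
  let Ee := Equiv.ofBijective _ (R.E_bijective hT he)
  let χ : Vb → V := fun v => toV (Ee.symm v)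
  have hE : ∀ x, χ (R.E T e x) = toV x := fun x => by
    show toV (Ee.symm (Ee x)) = _; rw [Equiv.symm_apply_apply]
  have op : ∀ (L : Vb → Vb) (M : X → X) (k : K) (g : W → W),
      (∀ x, L (R.E T e x) = R.E T e (M x)) → (∀ x, toV (M x) = act k g (toV x)) →
      ∀ v, χ (L v) = act k g (χ v) := by
    intro L M k g hL hM v
    obtain ⟨x, rfl⟩ := (R.E_bijective hT he).2 v
    rw [hL, hE, hE, hM]
  have rot : ∀ v, χ (R.δ v) = act kD id (χ v) :=
    op _ dX kD id (fun x => (R.E_d T e x).symm) toV_d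
  have oa := op _ _ oneK (gOf aX) (R.E_a hT he) tensor_a
  have ob := op _ _ oneK (gOf bX) (R.E_b hT he) tensor_b
  have of' := op _ _ oneK (gOf fX) (R.E_f hT he) tensor_f
  have oh := op _ _ oneK (gOf (hX c)) (hcol he) hth
  have ot := op _ _ kT (tv vc) (R.E_t hT he hfix) tensor_t
  have g1 : GoodP R χ ((1 : S3), (1 : S6)) := ⟨oneK, id, by decide, Symp.id, fun x => by
    rw [show R.ψ ((1 : S3), (1 : S6)) = 1 from R.map_one, act_one]; rfl⟩
  let Sm : Submonoid S6 :=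
    { carrier := {s | Equiv.Perm.sign s = 1 ∧ GoodP R χ (1, s)}
      one_mem' := ⟨map_one _, g1⟩
      mul_mem' := fun {s t} hs ht => ⟨by rw [_root_.map_mul, hs.1, ht.1, one_mul], by
        have h := GoodP.mul (Rep.even_right hs.1) (Rep.even_right ht.1) hs.2 ht.2
        rwa [Prod.mk_mul_mk, one_mul] at h⟩ }
  let H : Subgroup S6 :=
    { Sm with
      inv_mem' := fun {x} hx => by
        show x⁻¹ ∈ Sm
        rw [inv_eq_of_mul_eq_one_right (show x * x ^ (orderOf x - 1) = 1 by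
          rw [← pow_succ', Nat.sub_add_cancel (orderOf_pos x), pow_orderOf_eq_one])]
        exact pow_mem (show x ∈ Sm from hx) _ }
  have ma : T.a ∈ Sm := ⟨hT.ea, oneK, gOf aX, by decide, symp_a, oa⟩
  have mb : T.b ∈ Sm := ⟨hT.eb, oneK, gOf bX, by decide, symp_b, ob⟩
  have mh : T.h ∈ Sm := ⟨hT.eh, oneK, gOf (hX c), by decide, hsh, oh⟩
  have mr : r ∈ Sm := by
    refine (Submonoid.closure_le.2 ?_) hrmem
    rintro s (rfl | rfl | rfl)
    exacts [ma, mb, mh]
  have hH : H = alternatingGroup (Fin 6) := eq_top_of_mem T.a T.b T.f r h9 h9c hf hr H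
    (fun s hs => Equiv.Perm.mem_alternatingGroup.2 hs.1) ma mb
    ⟨hT.ef, oneK, gOf fX, by decide, symp_f, of'⟩ mr
  have even_good : ∀ s, Equiv.Perm.sign s = 1 → GoodP R χ (1, s) := fun s hs => by
    have : s ∈ H := hH ▸ Equiv.Perm.mem_alternatingGroup.2 hs
    exact this.2
  have grot : GoodP R χ (finRotate 3, 1) := ⟨kD, id, by decide, Symp.id, rot⟩
  have gsq : GoodP R χ (finRotate 3 * finRotate 3, 1) := by
    have h := GoodP.mul Rep.even_rot Rep.even_rot grot grot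
    rwa [Prod.mk_mul_mk, mul_one] at h
  have gev : ∀ (σ : S3) (s : S6), Equiv.Perm.sign σ = 1 → Equiv.Perm.sign s = 1 → GoodP R χ (σ, s) := by
    intro σ s hσ hs
    have h3 : ∀ σ : S3, Equiv.Perm.sign σ = 1 → σ = 1 ∨ σ = finRotate 3 ∨ σ = finRotate 3 * finRotate 3 := by
      decide +kernel
    have hσ1 : GoodP R χ (σ, (1 : S6)) := by
      rcases h3 σ hσ with rfl | rfl | rfl
      exacts [g1, grot, gsq]
    have h := GoodP.mul (p := (σ, (1 : S6))) (by simp [Even2, hσ]) (Rep.even_right hs) hσ1 (even_good s hs)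
    rwa [Prod.mk_mul_mk, mul_one, one_mul] at h
  refine ⟨χ, ⟨toV_bijective.comp Ee.symm.bijective, ?_, ?_, rot, ?_, ?_⟩⟩
  · intro x y
    obtain ⟨a, rfl⟩ := (R.E_bijective hT he).2 x
    obtain ⟨b, rfl⟩ := (R.E_bijective hT he).2 y
    rw [← R.E_add, hE, hE, hE, toV_add]
  · intro x
    obtain ⟨a, rfl⟩ := (R.E_bijective hT he).2 x
    rw [hE, R.E_q hT he, toV_q]
  · intro p hp
    obtain ⟨σ, s⟩ := p
    rcases Int.units_eq_one_or (Equiv.Perm.sign σ) with hσ | hσ
    · exact gev σ s hσ (hp.symm.trans hσ)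
    · have hs : Equiv.Perm.sign s = -1 := hp.symm.trans hσ
      have e1 : Equiv.Perm.sign (σ * Equiv.swap 1 2) = 1 := by
        rw [_root_.map_mul, hσ, Equiv.Perm.sign_swap (by decide)]; rfl
      have e2 : Equiv.Perm.sign (s * T.t) = 1 := by rw [_root_.map_mul, hs, hT.et]; rfl
      have h := GoodP.mul (show Even2 (σ * Equiv.swap 1 2, s * T.t) by simp [Even2, e1, e2])
        (Rep.even_odd hT) (gev _ _ e1 e2) ⟨kT, tv vc, by decide, symp_tv vc, ot⟩
      rwa [Prod.mk_mul_mk, mul_assoc, Equiv.swap_mul_self, mul_one, mul_assoc, hT.t2, mul_one] at h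
  · refine orbit_induction horb _ ⟨_, Rep.even_odd hT, ot⟩ ?_
    intro g hg u hu
    obtain ⟨p, hp, hpu⟩ := hu
    have key : ∀ (s : S6), Equiv.Perm.sign s = 1 → Symp g → (∀ x, χ (R.A s x) = act oneK g (χ x)) →
        ∃ p', Even2 p' ∧ ∀ x, χ (R.ψ p' x) = act kT (tv (g u)) (χ x) := by
      intro s hs hsg ha
      have hsi : Equiv.Perm.sign s⁻¹ = 1 := by rw [map_inv, hs, inv_one]
      refine ⟨(1, s) * p * (1, s⁻¹), ((Rep.even_right hs).mul hp).mul (Rep.even_right hsi), fun x => ?_⟩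
      obtain ⟨y, rfl⟩ : ∃ y, R.A s y = x := by
        refine ⟨R.A s⁻¹ x, ?_⟩
        have h := R.A_mul hs hsi
        rw [mul_inv_cancel, show R.A 1 = 1 from R.map_one] at h
        exact (DFunLike.congr_fun h x).symm
      rw [R.map_mul _ _ ((Rep.even_right hs).mul hp) (Rep.even_right hsi),
        R.map_mul _ _ (Rep.even_right hs) hp]
      show χ (R.A s (R.ψ p (R.A s⁻¹ (R.A s y)))) = _
      have h := R.A_mul hsi hs
      rw [inv_mul_cancel, show R.A 1 = 1 from R.map_one] at h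
      rw [show R.A s⁻¹ (R.A s y) = y from (DFunLike.congr_fun h y).symm, ha, hpu, ha,
        act_comp _ _ _ hsg, act_comp _ _ _ (symp_tv _), (mulK_one kT).2, (mulK_one kT).1]
      congr 1
      funext w
      simp only [Function.comp, tv, hsg.add, hsg.smul, hsg.form]
    simp only [gens, List.mem_cons, List.not_mem_nil, or_false] at hg
    rcases hg with rfl | rfl | rfl | rfl
    exacts [key _ hT.ea symp_a oa, key _ hT.eb symp_b ob, key _ hT.ef symp_f of', key _ hT.eh hsh oh]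

theorem order_facts : orderOf gf = 4 ∧ orderOf (gh * (ga * gb)) = 5 ∧ orderOf (gh * ga * gb) = 5 := by
  refine ⟨?_, ?_, ?_⟩
  · haveI : Fact (Nat.Prime 2) := ⟨Nat.prime_two⟩
    exact orderOf_eq_prime_pow (p := 2) (n := 1) (by decide +kernel) (by decide +kernel)
  all_goals
    haveI : Fact (Nat.Prime 5) := ⟨by norm_num⟩
    exact orderOf_eq_prime (by decide +kernel) (by decide +kernel)

theorem nine : ((pows9 tup₁.a tup₁.b).card = 9 ∧
      ∀ x ∈ pows9 tup₁.a tup₁.b, ∀ y ∈ pows9 tup₁.a tup₁.b, x * y ∈ pows9 tup₁.a tup₁.b) ∧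
    ((pows9 tup₂.a tup₂.b).card = 9 ∧
      ∀ x ∈ pows9 tup₂.a tup₂.b, ∀ y ∈ pows9 tup₂.a tup₂.b, x * y ∈ pows9 tup₂.a tup₂.b) := by
  decide +kernel

/-- The module is the tensor model. -/
theorem exists_coords {Vb : Type*} [AddCommGroup Vb] (R : Rep Vb) : ∃ χ, Coords R χ := by
  obtain ⟨⟨c1, d1⟩, c2, d2⟩ := nine
  rcases R.exists_weight with h | h
  · refine coords_of_tup R ok₁ c₁ symp_h₁ tensor_h₁ orbit₁
      (fun he => R.column ok₁ he 4 5 c₁ rel₁.1 rel₁.2 unique₁) _ c1 d1 order_facts.1 order_facts.2.2 ?_ h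
    exact mul_mem (mul_mem (Submonoid.subset_closure (Or.inr (Or.inr rfl)))
      (Submonoid.subset_closure (Or.inl rfl))) (Submonoid.subset_closure (Or.inr (Or.inl rfl)))
  · refine coords_of_tup R ok₂ c₂ symp_h₂ tensor_h₂ orbit₂
      (fun he => R.column ok₂ he 5 3 c₂ rel₂.1 rel₂.2 unique₂) _ c2 d2 order_facts.1 order_facts.2.1 ?_ h
    exact mul_mem (Submonoid.subset_closure (Or.inr (Or.inr rfl)))
      (Submonoid.subset_closure (Or.inl rfl))

end Cfsg.Agent.H49.TS
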