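import Cfsg.Agent.H49.Frame
import Cfsg.Agent.H49.TensorSignCase

/-!
The coordinates on the extraspecial subgroup when the quotient of the centraliser consists of the
pairs of equal sign.
-/

set_option autoImplicit false
set_option maxRecDepth 20000
set_option synthInstance.maxSize 4000
set_option linter.style.haveILetI false

namespace Cfsg.Agent.H49

open Cfsg.Agent.LargeExtra

namespace TS

variable {G : Type*} [Group G]

theorem cases_mul {z : G} (hz : z * z = 1) {x : G} (hx : x = 1 ∨ x = z) :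
    x * z = 1 ∨ x * z = z := by
  rcases hx with rfl | rfl
  · exact Or.inr (one_mul z)
  · exact Or.inl hz

theorem q_mul [Finite G] {z : G} {Q : Subgroup G} (h : CentralInvolution Q z) {a b : G}
    (ha : a ∈ Q) (hb : b ∈ Q) [Decidable (a * b * (a * b) = 1)] [Decidable (a * a = 1)]
    [Decidable (b * b = 1)] [Decidable (b * a * b⁻¹ = a)] :
    (if a * b * (a * b) = 1 then (0 : ZMod 2) else 1) =
      (if a * a = 1 then 0 else 1) + (if b * b = 1 then 0 else 1) + (if b * a * b⁻¹ = a then 0 else 1) := by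
  have hzz := h.sq
  have hz1 := h.ne_one
  have haz : a * z ≠ a := fun e => hz1 (left_eq_mul.1 e.symm)
  have key : a * b * (a * b) = a * (b * a * b⁻¹) * (b * b) := by group
  have two : (1 : ZMod 2) + 1 = 0 := by decide
  rcases h.sq_mem ha with sa | sa <;> rcases h.sq_mem hb with sb | sb <;>
    rcases h.conj_cases hb ha with c | c
  all_goals
    simp only [key, c, ← mul_assoc a a z, sa, sb, hz1, hzz, haz, one_mul, mul_one, add_zero, zero_add, two, if_true, if_false,
      two, zero_add, add_zero]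

end TS

open TS in
/-- The frame. -/
theorem exists_frame_sign {G : Type*} [Group G] [Finite G] {z : G} {Q : Subgroup G} (S : Cfsg.Agent.LargeExtra.Setting z Q 4)
    (π : ↥(Subgroup.centralizer ({z} : Set G)) →* Equiv.Perm (Fin 3) × Equiv.Perm (Fin 6))
    (hker : ∀ m, π m = 1 ↔ (m : G) ∈ Q)
    (hR : ∀ p, p ∈ π.range ↔ Equiv.Perm.sign p.1 = Equiv.Perm.sign p.2)
    (hfix : ∀ d, π d = (finRotate 3, 1) → ∀ a ∈ Q, ((d : G) * a * (d : G)⁻¹ = a ∨ (d : G) * a * (d : G)⁻¹ = a * z) → a = 1 ∨ a = z) :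
    ∃ χ, Frame z Q χ := by
  classical
  have hC := S.ci
  let N : Subgroup ↥Q := (Subgroup.zpowers z).subgroupOf Q
  have memN : ∀ x : ↥Q, x ∈ N ↔ (x : G) = 1 ∨ (x : G) = z := fun x =>
    Subgroup.mem_subgroupOf.trans hC.mem_zpowers_iff
  haveI hN : N.Normal := ⟨fun x hx y => by
    rw [memN] at hx ⊢
    rcases hx with e | e
    · left; simp [e]
    · right; simp [e, hC.comm _ y.2]⟩
  letI instC : CommGroup (↥Q ⧸ N) :=
    { (inferInstance : Group (↥Q ⧸ N)) with
      mul_comm := fun x y => by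
        obtain ⟨x, rfl⟩ := QuotientGroup.mk_surjective x
        obtain ⟨y, rfl⟩ := QuotientGroup.mk_surjective y
        rw [← QuotientGroup.mk_mul, ← QuotientGroup.mk_mul, QuotientGroup.eq, memN]
        have e : (((x * y)⁻¹ * (y * x) : ↥Q) : G) = (y : G)⁻¹ * (x : G)⁻¹ * (y : G)⁻¹⁻¹ * (x : G)⁻¹⁻¹ := by
          simp [mul_assoc]
        rw [e]
        exact hC.comm_mem (inv_mem y.2) (inv_mem x.2) }
  let cl : ↥Q → Additive (↥Q ⧸ N) := fun x => Additive.ofMul (QuotientGroup.mk x)
  have cl_mul : ∀ x y : ↥Q, cl (x * y) = cl x + cl y := fun x y => rfl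
  have cl_surj : ∀ v, ∃ x, cl x = v := fun v => by
    obtain ⟨x, hx⟩ := QuotientGroup.mk_surjective v.toMul
    exact ⟨x, by show Additive.ofMul _ = _; rw [hx]; rfl⟩
  have cl_eq : ∀ x y : ↥Q, cl x = cl y ↔ (y : G) = x ∨ (y : G) = x * z := by
    intro x y
    show Additive.ofMul (QuotientGroup.mk x) = Additive.ofMul (QuotientGroup.mk y) ↔ _
    rw [Additive.ofMul.injective.eq_iff, QuotientGroup.eq, memN]
    simp only [Subgroup.coe_mul, InvMemClass.coe_inv, inv_mul_eq_iff_eq_mul, mul_one]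
  have cl_zero : ∀ x : ↥Q, cl x = 0 ↔ (x : G) = 1 ∨ (x : G) = z := by
    intro x
    rw [show (0 : Additive (↥Q ⧸ N)) = cl 1 from rfl, eq_comm, cl_eq]
    simp
  have cj_mem : ∀ (m : ↥(Subgroup.centralizer ({z} : Set G))) (x : ↥Q), (m : G) * x * (m : G)⁻¹ ∈ Q :=
    fun m x => S.norm _ (Subgroup.mem_centralizer_singleton_iff.1 m.2) _ x.2
  let cj : ↥(Subgroup.centralizer ({z} : Set G)) → (↥Q →* ↥Q) := fun m =>
    { toFun := fun x => ⟨(m : G) * x * (m : G)⁻¹, cj_mem m x⟩
      map_one' := Subtype.ext (by simp)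
      map_mul' := fun x y => Subtype.ext (by simp [mul_assoc]) }
  have hle : ∀ m, N ≤ N.comap (cj m) := by
    intro m x hx
    rw [Subgroup.mem_comap, memN]
    show (m : G) * x * (m : G)⁻¹ = 1 ∨ (m : G) * x * (m : G)⁻¹ = z
    rcases (memN x).1 hx with e | e
    · left; simp [e]
    · right; rw [e, Subgroup.mem_centralizer_singleton_iff.1 m.2, mul_inv_cancel_right]
  let Φ : ↥(Subgroup.centralizer ({z} : Set G)) → AddMonoid.End (Additive (↥Q ⧸ N)) := fun m =>
    MonoidHom.toAdditive (QuotientGroup.map N N (cj m) (hle m))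
  have Φ_cl : ∀ m x, Φ m (cl x) = cl (cj m x) := fun m x => rfl
  have Φ_congr : ∀ m m', π m = π m' → Φ m = Φ m' := by
    intro m m' e
    apply AddMonoidHom.ext
    intro v
    obtain ⟨x, rfl⟩ := cl_surj v
    show cl (cj m x) = cl (cj m' x)
    rw [cl_eq]
    have hq : ((m⁻¹ * m' : ↥(Subgroup.centralizer ({z} : Set G))) : G) ∈ Q :=
      (hker _).1 (by rw [map_mul, map_inv, e, inv_mul_cancel])
    set q : G := ((m⁻¹ * m' : ↥(Subgroup.centralizer ({z} : Set G))) : G) with hqdef
    show (m' : G) * x * (m' : G)⁻¹ = (m : G) * x * (m : G)⁻¹ ∨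
      (m' : G) * x * (m' : G)⁻¹ = (m : G) * x * (m : G)⁻¹ * z
    have hm' : (m' : G) = (m : G) * q := by simp [hqdef]
    rw [hm']
    rcases hC.conj_cases hq x.2 with c | c
    · left
      calc (m : G) * q * x * ((m : G) * q)⁻¹ = (m : G) * (q * x * q⁻¹) * (m : G)⁻¹ := by group
        _ = _ := by rw [c]
    · right
      have hzm : z * (m : G)⁻¹ = (m : G)⁻¹ * z := by
        have := Subgroup.mem_centralizer_singleton_iff.1 (inv_mem m.2)
        exact this.symm
      calc (m : G) * q * x * ((m : G) * q)⁻¹ = (m : G) * (q * x * q⁻¹) * (m : G)⁻¹ := by group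
        _ = (m : G) * x * (z * (m : G)⁻¹) := by rw [c]; group
        _ = _ := by rw [hzm]; group
  let ψ : Equiv.Perm (Fin 3) × Equiv.Perm (Fin 6) → AddMonoid.End (Additive (↥Q ⧸ N)) := fun p =>
    if h : p ∈ π.range then Φ (Classical.choose h) else 1
  have hlift : ∀ p, Even2 p → ∃ m, π m = p := fun p hp => (hR p).2 hp
  have ψ_eq : ∀ m, ψ (π m) = Φ m := by
    intro m
    show (if h : π m ∈ π.range then _ else _) = _
    rw [dif_pos ⟨m, rfl⟩]
    exact Φ_congr _ _ (Classical.choose_spec (p := fun x => π x = π m) ⟨m, rfl⟩)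
  let qq : Additive (↥Q ⧸ N) → ZMod 2 := fun v =>
    if ((v.toMul.out : ↥Q) : G) * (v.toMul.out : ↥Q) = 1 then 0 else 1
  have qq_cl : ∀ x : ↥Q, qq (cl x) = if (x : G) * x = 1 then 0 else 1 := by
    intro x
    set y : ↥Q := (cl x).toMul.out with hy
    have e : cl x = cl y := by
      show cl x = Additive.ofMul (QuotientGroup.mk (cl x).toMul.out)
      rw [QuotientGroup.out_eq']; rfl
    show (if (y : G) * y = 1 then (0 : ZMod 2) else 1) = _
    rcases (cl_eq _ _).1 e with h | h <;> rw [h]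
    rw [show (x : G) * z * ((x : G) * z) = (x : G) * (z * x) * z by group, ← hC.comm _ x.2,
      show (x : G) * ((x : G) * z) * z = (x : G) * x * (z * z) by group, hC.sq, mul_one]
  let BB : Additive (↥Q ⧸ N) → Additive (↥Q ⧸ N) → ZMod 2 := fun v w => qq (v + w) + qq v + qq w
  have z2 : ∀ a b c : ZMod 2, a + b + c + b + c = a ∧ b + c + (a + b + c) = a := by decide
  have BB_cl : ∀ x y : ↥Q, BB (cl x) (cl y) = if (y : G) * x * (y : G)⁻¹ = x then 0 else 1 := by
    intro x y
    have e : qq (cl x + cl y) = _ := (congrArg qq (cl_mul x y).symm).trans (qq_cl (x * y))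
    show qq (cl x + cl y) + qq (cl x) + qq (cl y) = _
    rw [e, qq_cl, qq_cl, Subgroup.coe_mul, q_mul hC x.2 y.2]
    generalize (if (x : G) * x = 1 then (0 : ZMod 2) else 1) = a
    generalize (if (y : G) * y = 1 then (0 : ZMod 2) else 1) = b
    generalize (if (y : G) * x * (y : G)⁻¹ = x then (0 : ZMod 2) else 1) = c
    revert a b c
    decide
  haveI : Finite (↥Q ⧸ N) := inferInstance
  let R : Rep (Additive (↥Q ⧸ N)) :=
    { two := fun v => by
        obtain ⟨x, rfl⟩ := cl_surj v
        rw [← cl_mul, cl_zero]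
        exact hC.sq_mem x.2
      card := by
        have h2 : Nat.card ↥N = 2 := by
          rw [Nat.card_congr (Subgroup.subgroupOfEquivOfLe (Subgroup.zpowers_le.2 hC.mem)).toEquiv,
            Nat.card_zpowers]
          exact orderOf_eq_prime (by rw [pow_two, hC.sq]) hC.ne_one
        have h := Subgroup.card_eq_card_quotient_mul_card_subgroup N
        rw [S.card, h2] at h
        show Nat.card (↥Q ⧸ N) = 256
        omega
      ψ := ψ
      map_one := by
        rw [← map_one π, ψ_eq]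
        apply AddMonoidHom.ext
        intro v
        obtain ⟨x, rfl⟩ := cl_surj v
        show cl (cj 1 x) = cl x
        exact (cl_eq _ _).2 (Or.inl (by simp [cj]))
      map_mul := fun p r hp hr => by
        obtain ⟨m, rfl⟩ := hlift p hp
        obtain ⟨n, rfl⟩ := hlift r hr
        rw [← map_mul, ψ_eq, ψ_eq, ψ_eq]
        apply AddMonoidHom.ext
        intro v
        obtain ⟨x, rfl⟩ := cl_surj v
        show cl (cj (m * n) x) = cl (cj m (cj n x))
        refine congrArg cl (Subtype.ext ?_)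
        show (m : G) * n * x * ((m : G) * n)⁻¹ = (m : G) * ((n : G) * x * (n : G)⁻¹) * (m : G)⁻¹
        group
      faithful := fun p hp h => by
        obtain ⟨m, rfl⟩ := hlift p hp
        rw [ψ_eq] at h
        refine (hker m).2 ?_
        let α : MulAut ↥Q :=
          { toFun := cj m
            invFun := cj m⁻¹
            left_inv := fun x => Subtype.ext (by
              show (m : G)⁻¹ * ((m : G) * x * (m : G)⁻¹) * (m : G)⁻¹⁻¹ = x
              group)
            right_inv := fun x => Subtype.ext (by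
              show (m : G) * ((m : G)⁻¹ * x * (m : G)⁻¹⁻¹) * (m : G)⁻¹ = x
              group)
            map_mul' := (cj m).map_mul }
        haveI : Fact (Nat.Prime 2) := ⟨Nat.prime_two⟩
        obtain ⟨g, hg⟩ := Cfsg.Agent.PGroup.extraspecial_exists_conj hC.extra α (fun x => by
          have e := DFunLike.congr_fun h (cl x)
          change Φ m (cl x) = cl x at e
          rw [Φ_cl, cl_eq] at e
          rw [Subgroup.mem_center_iff]
          intro y
          have hu : ((x⁻¹ * α x : ↥Q) : G) = 1 ∨ ((x⁻¹ * α x : ↥Q) : G) = z := by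
            show (x : G)⁻¹ * (cj m x : G) = 1 ∨ (x : G)⁻¹ * (cj m x : G) = z
            rcases e with e | e
            · left; nth_rewrite 1 [e]; simp
            · right
              nth_rewrite 1 [e]
              rw [mul_inv_rev, inv_eq_of_mul_eq_one_right hC.sq, mul_assoc, inv_mul_cancel, mul_one]
          apply Subtype.ext
          show (y : G) * _ = _ * (y : G)
          rcases hu with hu | hu <;> rw [hu]
          · simp
          · exact hC.comm _ y.2)
        have hc : (g : G)⁻¹ * (m : G) ∈ Subgroup.centralizer (Q : Set G) := by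
          intro a ha
          have e : (m : G) * a * (m : G)⁻¹ = (g : G) * a * (g : G)⁻¹ :=
            congrArg Subtype.val (DFunLike.congr_fun hg ⟨a, ha⟩)
          calc a * ((g : G)⁻¹ * m) = (g : G)⁻¹ * ((g : G) * a * (g : G)⁻¹) * m := by group
            _ = (g : G)⁻¹ * ((m : G) * a * (m : G)⁻¹) * m := by rw [e]
            _ = _ := by group
        have := mul_mem g.2 (S.self hc)
        simpa using this
      fpf := fun v hv => by
        obtain ⟨d, hd⟩ := hlift (finRotate 3, 1) Rep.even_rot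
        obtain ⟨x, rfl⟩ := cl_surj v
        rw [← hd, ψ_eq, Φ_cl, eq_comm, cl_eq] at hv
        exact (cl_zero x).2 (hfix d hd x x.2 hv)
      q := qq
      B := BB
      q_add := fun v w => by
        show qq (v + w) = qq v + qq w + (qq (v + w) + qq v + qq w)
        exact (z2 _ _ _).2.symm
      B_add := fun u v w => by
        obtain ⟨a, rfl⟩ := cl_surj u
        obtain ⟨b, rfl⟩ := cl_surj v
        obtain ⟨c, rfl⟩ := cl_surj w
        have e : BB (cl a + cl b) (cl c) = BB (cl (a * b)) (cl c) := by rw [cl_mul]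
        rw [e, BB_cl, BB_cl, BB_cl, Subgroup.coe_mul]
        have hm : (c : G) * ((a : G) * b) * (c : G)⁻¹ =
            ((c : G) * a * (c : G)⁻¹) * ((c : G) * b * (c : G)⁻¹) := by group
        rw [hm]
        have hz1 := hC.ne_one
        have nz : ∀ t : G, t * z ≠ t := fun t e => hz1 (left_eq_mul.1 e.symm)
        have ez : (a : G) * z * ((b : G) * z) = (a : G) * b := by
          rw [show (a : G) * z * ((b : G) * z) = (a : G) * (z * b) * z by group, ← hC.comm _ b.2,
            show (a : G) * ((b : G) * z) * z = (a : G) * b * (z * z) by group, hC.sq, mul_one]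
        have az : (a : G) * z * (b : G) = (a : G) * b * z := by
          rw [mul_assoc, ← hC.comm _ b.2, mul_assoc]
        have two : (1 : ZMod 2) + 1 = 0 := by decide
        rcases hC.conj_cases c.2 a.2 with ha | ha <;> rcases hC.conj_cases c.2 b.2 with hb | hb <;>
          simp only [ha, hb, ez, az, ← mul_assoc (a : G) (b : G) z, nz, if_true, if_false, add_zero,
            zero_add, two]
      nondeg := fun v hv => by
        obtain ⟨x, rfl⟩ := cl_surj v
        refine (cl_zero x).2 (hC.of_central x x.2 fun q hq => ?_)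
        have e := hv (cl ⟨q, hq⟩)
        rw [BB_cl] at e
        by_contra hne
        rw [if_neg (fun h => hne (mul_inv_eq_iff_eq_mul.1 h))] at e
        exact absurd e (by decide)
      q_inv := fun p hp v => by
        obtain ⟨m, rfl⟩ := hlift p hp
        obtain ⟨x, rfl⟩ := cl_surj v
        rw [ψ_eq, Φ_cl, qq_cl, qq_cl]
        have e : ((cj m x : ↥Q) : G) * (cj m x : ↥Q) = (m : G) * ((x : G) * x) * (m : G)⁻¹ := by
          show (m : G) * x * (m : G)⁻¹ * ((m : G) * x * (m : G)⁻¹) = _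
          group
        simp only [e, conj_eq_one_iff] }
  obtain ⟨χ', hco⟩ := exists_coords R
  let χ : G → V := fun a => if h : a ∈ Q then χ' (cl ⟨a, h⟩) else 0
  have χ_def : ∀ x : ↥Q, χ (x : G) = χ' (cl x) := fun x => by simp [χ]
  have acts_lift : ∀ (m : ↥(Subgroup.centralizer ({z} : Set G))) k g,
      (∀ v, χ' (R.ψ (π m) v) = act k g (χ' v)) → Acts Q χ (m : G) k g := by
    intro m k g h a ha
    have h2 := h (cl ⟨a, ha⟩)
    change χ' (ψ (π m) _) = _ at h2
    rw [ψ_eq, Φ_cl] at h2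
    rw [show χ ((m : G) * a * (m : G)⁻¹) = χ' (cl (cj m ⟨a, ha⟩)) from χ_def (cj m ⟨a, ha⟩), h2]
    rw [← χ_def ⟨a, ha⟩]
  have real_of : ∀ p, Even2 p → ∀ k g, (∀ v, χ' (R.ψ p v) = act k g (χ' v)) → Real z Q χ k g := by
    intro p hp k g h
    obtain ⟨m, rfl⟩ := hlift p hp
    exact ⟨m, Subgroup.mem_centralizer_singleton_iff.1 m.2, acts_lift m k g h⟩
  have real_tv : ∀ u : W, u ≠ 0 → Real z Q χ kT (tv u) := fun u hu => by
    obtain ⟨p, hp, h⟩ := hco.transv u hu
    exact real_of p hp _ _ h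
  have χ0 : χ' 0 = 0 := by
    have := hco.add 0 0
    rw [add_zero] at this
    exact left_eq_add.1 this
  refine ⟨χ, ?_⟩
  refine ⟨S, ?_, ?_, ?_, ?_, ?_, ?_, ?_, real_of _ Rep.even_rot _ _ hco.rot, ?_, Or.inr ⟨vc, by decide, real_tv vc (by decide)⟩⟩
  · intro a ha b hb
    rw [show χ (a * b) = χ' (cl (⟨a, ha⟩ * ⟨b, hb⟩)) from χ_def (⟨a, ha⟩ * ⟨b, hb⟩), cl_mul, hco.add,
      ← χ_def ⟨a, ha⟩, ← χ_def ⟨b, hb⟩]
  · intro v
    obtain ⟨w, rfl⟩ := hco.bij.2 v
    obtain ⟨x, rfl⟩ := cl_surj w
    exact ⟨x, x.2, χ_def x⟩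
  · intro a ha
    rw [show χ a = χ' (cl ⟨a, ha⟩) from χ_def ⟨a, ha⟩, ← χ0, hco.bij.1.eq_iff, cl_zero]
  · intro a ha
    rw [show χ a = χ' (cl ⟨a, ha⟩) from χ_def ⟨a, ha⟩, hco.quad]
    show _ ↔ qq _ = 0
    rw [qq_cl]
    by_cases h : a * a = 1 <;> simp [h]
  · intro a ha b hb
    rw [show χ a = χ' (cl ⟨a, ha⟩) from χ_def ⟨a, ha⟩, show χ b = χ' (cl ⟨b, hb⟩) from χ_def ⟨b, hb⟩]
    have e : BV (χ' (cl ⟨a, ha⟩)) (χ' (cl ⟨b, hb⟩)) = BB (cl ⟨a, ha⟩) (cl ⟨b, hb⟩) := by
      show _ = qq _ + qq _ + qq _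
      have h1 := qV_add (χ' (cl ⟨a, ha⟩)) (χ' (cl ⟨b, hb⟩))
      rw [← hco.add, hco.quad, hco.quad, hco.quad] at h1
      change qq _ = qq _ + qq _ + _ at h1
      rw [h1]
      generalize qq (cl ⟨a, ha⟩) = s
      generalize qq (cl ⟨b, hb⟩) = t
      generalize BV _ _ = u
      revert s t u
      decide
    rw [e, BB_cl]
    constructor
    · intro h
      exact if_pos (mul_inv_eq_iff_eq_mul.2 h.symm)
    · intro h
      by_contra hne
      rw [if_neg (fun h' => hne (mul_inv_eq_iff_eq_mul.1 h').symm)] at h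
      exact absurd h (by decide)
  · intro m hm
    let m' : ↥(Subgroup.centralizer ({z} : Set G)) := ⟨m, Subgroup.mem_centralizer_singleton_iff.2 hm⟩
    obtain ⟨k, g, hk, hg, h⟩ := hco.acts (π m') ((hR _).1 ⟨m', rfl⟩)
    exact ⟨k, g, hk, hg, acts_lift m' k g h⟩
  · intro m hm h
    let m' : ↥(Subgroup.centralizer ({z} : Set G)) := ⟨m, Subgroup.mem_centralizer_singleton_iff.2 hm⟩
    refine (hker m').1 (R.faithful _ ((hR _).1 ⟨m', rfl⟩) ?_)
    apply AddMonoidHom.ext
    intro v
    obtain ⟨x, rfl⟩ := cl_surj v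
    show ψ (π m') (cl x) = cl x
    rw [ψ_eq, Φ_cl]
    apply hco.bij.1
    rw [← χ_def x, ← χ_def (cj m' x)]
    exact (h x x.2).trans (act_one _)
  · intro u v huv
    have hu : u ≠ 0 := fun e => by rw [e] at huv; exact absurd huv (by simp [om])
    have hv : v ≠ 0 := fun e => by rw [e] at huv; exact absurd huv (by simp [om])
    obtain ⟨p, hp, h1⟩ := hco.transv u hu
    obtain ⟨r, hr, h2⟩ := hco.transv v hv
    refine real_of (p * r) (hp.mul hr) _ _ fun w => ?_
    rw [R.map_mul p r hp hr]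
    show χ' (R.ψ p (R.ψ r w)) = _
    rw [h1, h2, act_comp _ _ _ (symp_tv u), show mulK kT kT = oneK from by decide]

end Cfsg.Agent.H49
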