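import Cfsg.Agent.H49.TensorSignRep

/-!
Coordinates from a weight vector.
-/

set_option autoImplicit false
set_option maxRecDepth 20000
set_option synthInstance.maxSize 4000
set_option synthInstance.maxHeartbeats 200000

namespace Cfsg.Agent.H49.TS

open Equiv

def sel {M : Type*} [Zero M] (p : ZMod 2) (v : M) : M := if p = 0 then 0 else v

theorem sel_zero {M : Type*} [Zero M] (v : M) : sel 0 v = 0 := if_pos rfl
theorem sel_one {M : Type*} [Zero M] (v : M) : sel 1 v = v := if_neg (by decide)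

theorem z2_smul {M : Type*} [AddCommGroup M] [Module (ZMod 2) M] (p : ZMod 2) (v : M) :
    p • v = sel p v := by
  rcases z2cases p with rfl | rfl
  · rw [zero_smul, sel_zero]
  · rw [one_smul, sel_one]

theorem decomp : ∀ x : X, x = sel x.1.1 e1 + sel x.1.2 (dX e1) + (sel x.2.1.1 e2 + sel x.2.1.2 (dX e2)) +
    (sel x.2.2.1.1 e3 + sel x.2.2.1.2 (dX e3)) + (sel x.2.2.2.1 e4 + sel x.2.2.2.2 (dX e4)) := by
  decide +kernel

theorem map_sel {M N : Type*} [AddCommGroup M] [AddCommGroup N] {G : M → N}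
    (hG : ∀ a b, G (a + b) = G a + G b) (p : ZMod 2) (v : M) : G (sel p v) = sel p (G v) := by
  rcases z2cases p with rfl | rfl
  · have := hG 0 0
    rw [add_zero] at this
    rw [sel_zero, sel_zero]
    exact left_eq_add.1 this
  · rw [sel_one, sel_one]

theorem ext8 {N : Type*} [AddCommGroup N] {G H : X → N} (hG : ∀ a b, G (a + b) = G a + G b)
    (hH : ∀ a b, H (a + b) = H a + H b)
    (h : ∀ e ∈ [e1, e2, e3, e4], G e = H e ∧ G (dX e) = H (dX e)) (x : X) : G x = H x := by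
  simp only [List.forall_mem_cons, List.not_mem_nil, IsEmpty.forall_iff, implies_true, and_true] at h
  rw [decomp x]
  simp only [hG, hH, map_sel hG, map_sel hH, h]

theorem dX_add (x y : X) : dX (x + y) = dX x + dX y := by
  simp only [dX, wm, Prod.fst_add, Prod.snd_add, Prod.mk_add_mk, Prod.mk.injEq]
  simp only [true_and, and_true]
  refine ⟨?_, ?_, ?_, ?_⟩ <;> abel

theorem aX_add (x y : X) : aX (x + y) = aX x + aX y := by
  simp only [aX, wm, Prod.fst_add, Prod.snd_add, Prod.mk_add_mk, Prod.mk.injEq, true_and, and_true]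
  refine ⟨?_, ?_, ?_⟩ <;> abel

theorem bX_add (x y : X) : bX (x + y) = bX x + bX y := by
  simp only [bX, wm, Prod.fst_add, Prod.snd_add, Prod.mk_add_mk, Prod.mk.injEq, true_and, and_true]
  refine ⟨?_, ?_, ?_⟩ <;> abel

theorem fX_add (x y : X) : fX (x + y) = fX x + fX y := rfl

theorem fiX_add (x y : X) : fiX (x + y) = fiX x + fiX y := rfl

theorem tX_add (x y : X) : tX (x + y) = tX x + tX y := by
  simp only [tX, wm, bar, Prod.fst_add, Prod.snd_add, Prod.mk_add_mk, Prod.mk.injEq, true_and, and_true]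
  refine ⟨?_, ?_, ?_, ?_⟩ <;> first | abel | exact ⟨by abel, by abel⟩ | exact ⟨trivial, trivial⟩ | simp
  all_goals exact ⟨trivial, trivial⟩

theorem sm_add (c d : F4) (v : X) : sm (c + d) v = sm c v + sm d v := by
  simp only [sm, Prod.fst_add, Prod.snd_add, add_smul]; abel

theorem hX_add (v x y : X) : hX v (x + y) = hX v x + hX v y := by
  simp only [hX, Prod.fst_add, Prod.snd_add, sm_add]; abel

/-- Projections on the four weight spaces detect a nonzero vector. -/
theorem proj_cases : ∀ x : X, x ≠ 0 →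
    x + dX (dX (aX x)) + dX (aX (aX x)) ∈ [e1, dX e1, dX (dX e1)] ∨
    x + dX (dX (bX x)) + dX (bX (bX x)) ∈ [e2, dX e2, dX (dX e2)] ∨
    x + dX (aX x) + dX (dX (aX (aX x))) ∈ [e3, dX e3, dX (dX e3)] ∨
    x + dX (bX x) + dX (dX (bX (bX x))) ∈ [e4, dX e4, dX (dX e4)] := by decide +kernel

theorem weight_line : ∀ x : X, x ≠ 0 → aX x = dX x → bX x = x → x ∈ [e1, dX e1, dX (dX e1)] := by
  decide +kernel

theorem hX_basis : ∀ v : X, hX v e1 = v ∧ hX v e2 = fiX v ∧ hX v e3 = fiX (fiX v) ∧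
    hX v e4 = fiX (fiX (fiX v)) ∧ ∀ e ∈ [e1, e2, e3, e4], hX v (dX e) = dX (hX v e) := by decide +kernel

namespace Rep

variable {Vb : Type*} [AddCommGroup Vb] (R : Rep Vb)

theorem sel_add (R : Rep Vb) (p r : ZMod 2) (v : Vb) : sel (p + r) v = sel p v + sel r v := by
  rcases z2cases p with rfl | rfl <;> rcases z2cases r with rfl | rfl
  all_goals simp only [sel_zero, sel_one, add_zero, zero_add]
  rw [show (1 : ZMod 2) + 1 = 0 by decide, sel_zero, R.two]

/-- The scalar multiple. -/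
def S (c : F4) (v : Vb) : Vb := sel c.1 v + sel c.2 (R.δ v)

theorem S_zero_one (v : Vb) : R.S 0 v = 0 ∧ R.S (1, 0) v = v ∧ R.S (0, 1) v = R.δ v ∧
    R.S (1, 1) v = v + R.δ v := by
  simp [S, sel_zero, sel_one, show (0 : F4).1 = 0 from rfl, show (0 : F4).2 = 0 from rfl]

theorem S_eigen {s : S6} (hs : Perm.sign s = 1) {v : Vb} (j : ℕ)
    (h : R.A s v = (R.δ ^ j) v) (c : F4) : R.A s (R.S c v) = (R.δ ^ j) (R.S c v) := by
  have hd : R.A s (R.δ v) = (R.δ ^ j) (R.δ v) := by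
    rw [show R.A s (R.δ v) = R.δ (R.A s v) from DFunLike.congr_fun (R.A_comm_δ hs) v, h]
    exact DFunLike.congr_fun ((Commute.refl R.δ).pow_right j) v
  rw [S, map_add, map_sel (map_add (R.A s)), map_sel (map_add (R.A s)), h, hd, map_add,
    map_sel (map_add (R.δ ^ j)), map_sel (map_add (R.δ ^ j))]

theorem pow_two_apply (v : Vb) : (R.δ ^ 2) v = R.δ (R.δ v) := by rw [pow_two]; rfl

theorem B_symm (x y : Vb) : R.B x y = R.B y x := by
  have e := R.q_add x y
  rw [add_comm x y, R.q_add y x, add_comm (R.q y) (R.q x)] at e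
  exact (add_left_cancel e).symm

theorem B_add_right (x y w : Vb) : R.B x (y + w) = R.B x y + R.B x w := by
  rw [R.B_symm, R.B_add, R.B_symm y, R.B_symm w]

theorem q_zero : R.q 0 = 0 := by
  have e := R.q_add 0 0
  have b := R.B_add 0 0 0
  rw [add_zero] at e b
  rcases z2cases (R.q 0) with h | h
  · exact h
  · rw [left_eq_add.1 b, h] at e; exact absurd e (by decide)

theorem B_self (x : Vb) : R.B x x = 0 := by
  have e := R.q_add x x
  rw [R.two, R.q_zero] at e
  rcases z2cases (R.q x) with h | h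
  · rw [h] at e; simpa using e.symm
  · rw [h, show (1 : ZMod 2) + 1 = 0 by decide, zero_add] at e; exact e.symm

theorem B_inv {p : S3 × S6} (hp : Even2 p) (x y : Vb) : R.B (R.ψ p x) (R.ψ p y) = R.B x y := by
  have e := R.q_add (R.ψ p x) (R.ψ p y)
  rw [← map_add, R.q_inv p hp, R.q_inv p hp, R.q_inv p hp, R.q_add x y] at e
  exact (add_left_cancel e).symm

theorem orth {s : S6} (hs : Perm.sign s = 1) {i j : ℕ}
    (hij : (i, j) ∈ [(0, 1), (1, 0), (0, 2), (2, 0), (1, 2), (2, 1)]) {x y : Vb}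
    (hx : R.A s x = (R.δ ^ i) x) (hy : R.A s y = (R.δ ^ j) y) : R.B x y = 0 := by
  have key : ∀ {i j : ℕ} {x y : Vb}, (i, j) ∈ [(0, 1), (0, 2), (1, 2)] → R.A s x = (R.δ ^ i) x →
      R.A s y = (R.δ ^ j) y → R.B x y = 0 := by
    intro i j x y hij hx hy
    have hb : ∀ w, R.A s w = (R.δ ^ j) w → R.B x w = R.B ((R.δ ^ i) x) ((R.δ ^ j) w) := fun w hw => by
      rw [← hx, ← hw]; exact (R.B_inv (even_right hs) x w).symm
    have hyd : R.A s (R.δ y) = (R.δ ^ j) (R.δ y) := by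
      rw [show R.A s (R.δ y) = R.δ (R.A s y) from DFunLike.congr_fun (R.A_comm_δ hs) y, hy]
      exact DFunLike.congr_fun ((Commute.refl R.δ).pow_right j) y
    have e1 := hb y hy
    have e2 := hb _ hyd
    have dd : R.B x (R.δ (R.δ y)) = R.B x y + R.B x (R.δ y) := by rw [R.δ_sq, R.B_add_right]
    have dj : ∀ a b, R.B (R.δ a) (R.δ b) = R.B a b := R.B_inv even_rot
    simp only [List.mem_cons, Prod.mk.injEq, List.not_mem_nil, or_false] at hij
    rcases hij with ⟨rfl, rfl⟩ | ⟨rfl, rfl⟩ | ⟨rfl, rfl⟩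
    · simp only [pow_zero, pow_one] at e1 e2
      change R.B x y = R.B x (R.δ y) at e1
      change R.B x (R.δ y) = R.B x (R.δ (R.δ y)) at e2
      rw [dd] at e2
      exact add_eq_right.1 e2.symm
    · simp only [pow_zero, pow_two] at e1 e2
      change R.B x y = R.B x (R.δ (R.δ y)) at e1
      change R.B x (R.δ y) = R.B x (R.δ (R.δ (R.δ y))) at e2
      rw [R.δ_cube] at e2
      rw [dd, e2] at e1
      exact left_eq_add.1 e1
    · simp only [pow_one, pow_two] at e1 e2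
      change R.B x y = R.B (R.δ x) (R.δ (R.δ y)) at e1
      change R.B x (R.δ y) = R.B (R.δ x) (R.δ (R.δ (R.δ y))) at e2
      rw [dj] at e1 e2
      rw [dd] at e2
      exact add_eq_right.1 e2.symm
  simp only [List.mem_cons, Prod.mk.injEq, List.not_mem_nil, or_false] at hij
  rcases hij with ⟨rfl, rfl⟩ | ⟨rfl, rfl⟩ | ⟨rfl, rfl⟩ | ⟨rfl, rfl⟩ | ⟨rfl, rfl⟩ | ⟨rfl, rfl⟩
  · exact key (by simp) hx hy
  · rw [R.B_symm]; exact key (by simp) hy hx
  · exact key (by simp) hx hy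
  · rw [R.B_symm]; exact key (by simp) hy hx
  · exact key (by simp) hx hy
  · rw [R.B_symm]; exact key (by simp) hy hx

variable (T : Tup) (e : Vb)

def v2 : Vb := R.A T.f e
def v3 : Vb := R.A T.f (R.A T.f e)
def v4 : Vb := R.A T.f (R.A T.f (R.A T.f e))

/-- The coordinate map. -/
def E (x : X) : Vb :=
  R.S x.1 e + R.S x.2.1 (R.v2 T e) + R.S x.2.2.1 (R.v3 T e) + R.S x.2.2.2 (R.v4 T e)

theorem E_add (x y : X) : R.E T e (x + y) = R.E T e x + R.E T e y := by
  simp only [E, S, Prod.fst_add, Prod.snd_add, R.sel_add]; abel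

theorem E_basis : R.E T e e1 = e ∧ R.E T e e2 = R.v2 T e ∧ R.E T e e3 = R.v3 T e ∧ R.E T e e4 = R.v4 T e ∧
    R.E T e (dX e1) = R.δ e ∧ R.E T e (dX e2) = R.δ (R.v2 T e) ∧ R.E T e (dX e3) = R.δ (R.v3 T e) ∧
    R.E T e (dX e4) = R.δ (R.v4 T e) := by
  simp [E, S, sel, e1, e2, e3, e4, dX, wm]

theorem E_d (x : X) : R.E T e (dX x) = R.δ (R.E T e x) := by
  obtain ⟨b1, b2, b3, b4, d1, d2, d3, d4⟩ := R.E_basis T e
  refine ext8 (G := fun x => R.E T e (dX x)) (H := fun x => R.δ (R.E T e x))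
    (fun a b => by simp only [dX_add, R.E_add]) (fun a b => by simp only [R.E_add, map_add]) ?_ x
  have hdd : ∀ u ∈ [e1, e2, e3, e4], dX (dX u) = u + dX u := by decide +kernel
  intro u hu
  simp only [hdd u hu, R.E_add]
  simp only [List.mem_cons, List.not_mem_nil, or_false] at hu
  rcases hu with rfl | rfl | rfl | rfl <;> simp only [b1, b2, b3, b4, d1, d2, d3, d4, R.δ_sq, and_self]

/-- A map commuting with the three cycle is determined by the four basis vectors. -/
theorem intertwine (L : AddMonoid.End Vb) (hL : ∀ v, L (R.δ v) = R.δ (L v)) (M : X → X)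
    (hM : ∀ x y, M (x + y) = M x + M y) (hMd : ∀ u ∈ [e1, e2, e3, e4], M (dX u) = dX (M u))
    (h1 : L e = R.E T e (M e1)) (h2 : L (R.v2 T e) = R.E T e (M e2))
    (h3 : L (R.v3 T e) = R.E T e (M e3)) (h4 : L (R.v4 T e) = R.E T e (M e4)) (x : X) :
    L (R.E T e x) = R.E T e (M x) := by
  obtain ⟨b1, b2, b3, b4, d1, d2, d3, d4⟩ := R.E_basis T e
  refine ext8 (G := fun x => L (R.E T e x)) (H := fun x => R.E T e (M x))
    (fun a b => by simp only [R.E_add, map_add]) (fun a b => by simp only [hM, R.E_add]) ?_ x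
  intro u hu
  simp only [hMd u hu, R.E_d]
  simp only [List.mem_cons, List.not_mem_nil, or_false] at hu
  rcases hu with rfl | rfl | rfl | rfl
  · exact ⟨by rw [b1, h1], by rw [b1, hL, h1]⟩
  · exact ⟨by rw [b2, h2], by rw [b2, hL, h2]⟩
  · exact ⟨by rw [b3, h3], by rw [b3, hL, h3]⟩
  · exact ⟨by rw [b4, h4], by rw [b4, hL, h4]⟩

theorem Ad (s : S6) (hs : Perm.sign s = 1) (v : Vb) : R.A s (R.δ v) = R.δ (R.A s v) :=
  DFunLike.congr_fun (R.A_comm_δ hs) v

variable {T} {e} (hT : T.Ok) (he : R.Weight T e)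
include hT he

omit he in
theorem af_apply (v : Vb) : R.A T.a (R.A T.f v) = R.A T.f (R.A T.b (R.A T.b v)) := by
  have h := congrArg R.A hT.fa
  rw [R.A_mul hT.ea hT.ef, R.A_mul hT.ef (by rw [_root_.map_mul, hT.eb, mul_one]), R.A_mul hT.eb hT.eb] at h
  exact DFunLike.congr_fun h v

omit he in
theorem bf_apply (v : Vb) : R.A T.b (R.A T.f v) = R.A T.f (R.A T.a v) := by
  have h := congrArg R.A hT.fb
  rw [R.A_mul hT.eb hT.ef, R.A_mul hT.ef hT.ea] at h
  exact DFunLike.congr_fun h v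

theorem weights : R.A T.a (R.v2 T e) = R.v2 T e ∧ R.A T.b (R.v2 T e) = R.δ (R.v2 T e) ∧
    R.A T.a (R.v3 T e) = R.δ (R.δ (R.v3 T e)) ∧ R.A T.b (R.v3 T e) = R.v3 T e ∧
    R.A T.a (R.v4 T e) = R.v4 T e ∧ R.A T.b (R.v4 T e) = R.δ (R.δ (R.v4 T e)) := by
  obtain ⟨-, ha, hb⟩ := he
  have dA := R.Ad T.f hT.ef
  have db := R.Ad T.b hT.eb
  have a2 : R.A T.a (R.v2 T e) = R.v2 T e := by rw [v2, R.af_apply hT, hb, hb]
  have b2 : R.A T.b (R.v2 T e) = R.δ (R.v2 T e) := by rw [v2, R.bf_apply hT, ha, dA]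
  have a3 : R.A T.a (R.v3 T e) = R.δ (R.δ (R.v3 T e)) := by
    change R.A T.a (R.A T.f (R.v2 T e)) = _
    rw [R.af_apply hT, b2, db, b2, dA, dA]; rfl
  have b3 : R.A T.b (R.v3 T e) = R.v3 T e := by
    change R.A T.b (R.A T.f (R.v2 T e)) = _
    rw [R.bf_apply hT, a2]; rfl
  refine ⟨a2, b2, a3, b3, ?_, ?_⟩
  · change R.A T.a (R.A T.f (R.v3 T e)) = _
    rw [R.af_apply hT, b3, b3]; rfl
  · change R.A T.b (R.A T.f (R.v3 T e)) = _
    rw [R.bf_apply hT, a3, dA, dA]; rfl

theorem E_a (x : X) : R.A T.a (R.E T e x) = R.E T e (aX x) := by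
  obtain ⟨b1, b2, b3, b4, d1, d2, d3, d4⟩ := R.E_basis T e
  obtain ⟨wa2, -, wa3, -, wa4, -⟩ := R.weights hT he
  refine R.intertwine T e _ (R.Ad _ hT.ea) aX aX_add (by decide +kernel) ?_ ?_ ?_ ?_ x
  · rw [show aX e1 = dX e1 by decide +kernel, d1]; exact he.2.1
  · rw [show aX e2 = e2 by decide +kernel, b2, wa2]
  · rw [show aX e3 = dX (dX e3) by decide +kernel, R.E_d, d3, wa3]
  · rw [show aX e4 = e4 by decide +kernel, b4, wa4]

theorem E_b (x : X) : R.A T.b (R.E T e x) = R.E T e (bX x) := by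
  obtain ⟨b1, b2, b3, b4, d1, d2, d3, d4⟩ := R.E_basis T e
  obtain ⟨-, wb2, -, wb3, -, wb4⟩ := R.weights hT he
  refine R.intertwine T e _ (R.Ad _ hT.eb) bX bX_add (by decide +kernel) ?_ ?_ ?_ ?_ x
  · rw [show bX e1 = e1 by decide +kernel, b1]; exact he.2.2
  · rw [show bX e2 = dX e2 by decide +kernel, d2, wb2]
  · rw [show bX e3 = e3 by decide +kernel, b3, wb3]
  · rw [show bX e4 = dX (dX e4) by decide +kernel, R.E_d, d4, wb4]

theorem E_f (x : X) : R.A T.f (R.E T e x) = R.E T e (fX x) := by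
  obtain ⟨b1, b2, b3, b4, -, -, -, -⟩ := R.E_basis T e
  refine R.intertwine T e _ (R.Ad _ hT.ef) fX fX_add (by decide +kernel) ?_ ?_ ?_ ?_ x
  · rw [show fX e1 = e2 by decide +kernel, b2]; rfl
  · rw [show fX e2 = e3 by decide +kernel, b3]; rfl
  · rw [show fX e3 = e4 by decide +kernel, b4]; rfl
  · rw [show fX e4 = e1 by decide +kernel, b1, v4]
    have h := congrArg R.A hT.f4
    rw [R.A_pow hT.ef, show R.A 1 = 1 from R.map_one] at h
    exact DFunLike.congr_fun h e

theorem E_bijective : Function.Bijective (R.E T e) := by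
  classical
  have ker : ∀ x, R.E T e x = 0 → x = 0 := by
    intro x hx
    by_contra hne
    have hz : ∀ w, R.A T.f w = 0 → w = 0 := fun w hw => by
      have h := congrArg R.A hT.f4
      rw [R.A_pow hT.ef, show R.A 1 = 1 from R.map_one] at h
      have h1 : R.A T.f (R.A T.f (R.A T.f (R.A T.f w))) = w := DFunLike.congr_fun h w
      rwa [hw, map_zero, map_zero, map_zero, eq_comm] at h1
    have n2 : R.v2 T e ≠ 0 := fun h => he.1 (hz _ h)
    have n3 : R.v3 T e ≠ 0 := fun h => n2 (hz _ h)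
    have n4 : R.v4 T e ≠ 0 := fun h => n3 (hz _ h)
    obtain ⟨b1, b2, b3, b4, -, -, -, -⟩ := R.E_basis T e
    have fin : ∀ (u : X) (w : Vb), R.E T e u = w → w ≠ 0 → ∀ y ∈ [u, dX u, dX (dX u)], R.E T e y ≠ 0 := by
      intro u w huw hw y hy
      simp only [List.mem_cons, List.not_mem_nil, or_false] at hy
      rcases hy with rfl | rfl | rfl
      · rwa [huw]
      · rw [R.E_d, huw]
        intro h
        exact hw (by rw [← R.δ_cube w, h, map_zero, map_zero])
      · rw [R.E_d, R.E_d, huw]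
        intro h
        exact hw (by rw [← R.δ_cube w, h, map_zero])
    rcases proj_cases x hne with h | h | h | h
    · refine fin _ _ b1 he.1 _ h ?_
      simp only [R.E_add, R.E_d, ← R.E_a hT he, hx, map_zero, add_zero]
    · refine fin _ _ b2 n2 _ h ?_
      simp only [R.E_add, R.E_d, ← R.E_b hT he, hx, map_zero, add_zero]
    · refine fin _ _ b3 n3 _ h ?_
      simp only [R.E_add, R.E_d, ← R.E_a hT he, hx, map_zero, add_zero]
    · refine fin _ _ b4 n4 _ h ?_
      simp only [R.E_add, R.E_d, ← R.E_b hT he, hx, map_zero, add_zero]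
  haveI : Finite Vb := Nat.finite_of_card_ne_zero (by rw [R.card]; norm_num)
  refine (Nat.bijective_iff_injective_and_card _).2 ⟨fun x y h => ?_, ?_⟩
  · have h1 := ker (x + y) (by rw [R.E_add, h, R.two])
    calc x = x + (y + y) := by rw [x_add_self, add_zero]
      _ = x + y + y := (add_assoc _ _ _).symm
      _ = y := by rw [h1, zero_add]
  · rw [R.card, Nat.card_eq_fintype_card]; rfl

theorem E_q (x : X) : R.q (R.E T e x) = qX x := by
  obtain ⟨wa2, wb2, wa3, wb3, wa4, wb4⟩ := R.weights hT he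
  have A1 := fun c => R.S_eigen hT.ea 1 (show R.A T.a e = (R.δ ^ 1) e by rw [pow_one]; exact he.2.1) c
  have A2 := fun c => R.S_eigen hT.ea 0 (show R.A T.a (R.v2 T e) = (R.δ ^ 0) (R.v2 T e) from wa2) c
  have A3 := fun c => R.S_eigen hT.ea 2 (wa3.trans (R.pow_two_apply _).symm) c
  have A4 := fun c => R.S_eigen hT.ea 0 (show R.A T.a (R.v4 T e) = (R.δ ^ 0) (R.v4 T e) from wa4) c
  have B2 := fun c => R.S_eigen hT.eb 1 (show R.A T.b (R.v2 T e) = (R.δ ^ 1) (R.v2 T e) by rw [pow_one]; exact wb2) c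
  have B3 := fun c => R.S_eigen hT.eb 0 (show R.A T.b (R.v3 T e) = (R.δ ^ 0) (R.v3 T e) from wb3) c
  have B4 := fun c => R.S_eigen hT.eb 2 (wb4.trans (R.pow_two_apply _).symm) c
  have o12 := fun c d => R.orth hT.ea (by simp) (A1 c) (A2 d)
  have o13 := fun c d => R.orth hT.ea (by simp) (A1 c) (A3 d)
  have o14 := fun c d => R.orth hT.ea (by simp) (A1 c) (A4 d)
  have o23 := fun c d => R.orth hT.eb (by simp) (B2 c) (B3 d)
  have o24 := fun c d => R.orth hT.eb (by simp) (B2 c) (B4 d)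
  have o34 := fun c d => R.orth hT.eb (by simp) (B3 c) (B4 d)
  have qd : ∀ v, R.q (R.δ v) = R.q v := fun v => R.q_inv _ even_rot v
  have qe : R.q e = 1 := by
    rcases z2cases (R.q e) with h | h
    · refine absurd (R.nondeg e fun y => ?_) he.1
      obtain ⟨x, rfl⟩ := (R.E_bijective hT he).2 y
      have hbd : R.B e (R.δ e) = 0 := by
        have := R.q_add e (R.δ e)
        rw [← R.δ_sq, qd, qd, h, zero_add, zero_add] at this
        exact this.symm
      have hl : ∀ c, R.B e (R.S c e) = 0 := fun c => by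
        rw [S, R.B_add_right, map_sel (R.B_add_right e), map_sel (R.B_add_right e), R.B_self, hbd]
        rcases z2cases c.1 with h1 | h1 <;> rcases z2cases c.2 with h2 | h2 <;>
          simp [h1, h2, sel_zero, sel_one]
      have he1 : R.S (1, 0) e = e := (R.S_zero_one e).2.1
      have r2 := o12 (1, 0) x.2.1
      have r3 := o13 (1, 0) x.2.2.1
      have r4 := o14 (1, 0) x.2.2.2
      rw [he1] at r2 r3 r4
      simp only [E, R.B_add_right, hl, r2, r3, r4, add_zero]
    · exact h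
  have qf : ∀ v, R.q (R.A T.f v) = R.q v := fun v => R.q_inv _ (even_right hT.ef) v
  have q2 : R.q (R.v2 T e) = 1 := by rw [v2, qf, qe]
  have q3 : R.q (R.v3 T e) = 1 := by rw [v3, qf, qf, qe]
  have q4 : R.q (R.v4 T e) = 1 := by rw [v4, qf, qf, qf, qe]
  have qS : ∀ (v : Vb) (c : F4), R.q v = 1 → R.q (R.S c v) = nm c := by
    intro v c hv
    obtain ⟨s0, s1, s2, s3⟩ := R.S_zero_one v
    obtain ⟨p, r⟩ := c
    rcases z2cases p with rfl | rfl <;> rcases z2cases r with rfl | rfl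
    · rw [show ((0, 0) : F4) = 0 from rfl, s0, R.q_zero]; rfl
    · rw [s2, qd, hv]; rfl
    · rw [s1, hv]; rfl
    · rw [s3, ← R.δ_sq, qd, qd, hv]; rfl
  simp only [E, R.q_add, R.B_add, o12, o13, o14, o23, o24, o34, qS _ _ qe, qS _ _ q2, qS _ _ q3,
    qS _ _ q4, qX, add_zero]

theorem E_h (x : X) (v : X) (hv : R.A T.h e = R.E T e v) : R.A T.h (R.E T e x) = R.E T e (hX v x) := by
  obtain ⟨h1, h2, h3, h4, hd⟩ := hX_basis v
  have hfi : ∀ y, R.A T.f (R.A T.f (R.A T.f (R.E T e y))) = R.E T e (fiX y) := fun y => by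
    rw [R.E_f hT he, R.E_f hT he, R.E_f hT he]; rfl
  have hh : ∀ w, R.A T.h (R.A T.f w) = R.A T.f (R.A T.f (R.A T.f (R.A T.h w))) := by
    intro w
    have h := congrArg R.A hT.hf
    rw [R.A_mul hT.eh hT.ef, R.A_mul (by rw [_root_.map_pow, hT.ef, one_pow]) hT.eh, R.A_pow hT.ef] at h
    exact DFunLike.congr_fun h w
  refine R.intertwine T e _ (R.Ad _ hT.eh) (hX v) (hX_add v) hd ?_ ?_ ?_ ?_ x
  · rw [h1, hv]
  · rw [h2, v2, hh, hv, hfi]
  · rw [h3, v3, hh, hh, hv, hfi, hfi]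
  · rw [h4, v4, hh, hh, hh, hv, hfi, hfi, hfi]

end Rep

end Cfsg.Agent.H49.TS
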