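import Cfsg.Agent.H49.Model

/-!
The monomial coordinates of the four dimensional module of the alternating group of degree six over
the field with four elements, and their comparison with the tensor model.
-/

set_option autoImplicit false
set_option maxRecDepth 20000
set_option synthInstance.maxSize 4000
set_option synthInstance.maxHeartbeats 200000

namespace Cfsg.Agent.H49.TS

/-- The field with four elements: `(p, r)` stands for `p + r ω`. -/
abbrev F4 : Type := ZMod 2 × ZMod 2

abbrev X : Type := F4 × F4 × F4 × F4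

def wm (c : F4) : F4 := (c.2, c.1 + c.2)
def bar (c : F4) : F4 := (c.1 + c.2, c.2)
def nm (c : F4) : ZMod 2 := c.1 + c.2 + c.1 * c.2

def qX (x : X) : ZMod 2 := nm x.1 + nm x.2.1 + nm x.2.2.1 + nm x.2.2.2

def dX (x : X) : X := (wm x.1, wm x.2.1, wm x.2.2.1, wm x.2.2.2)
def aX (x : X) : X := (wm x.1, x.2.1, wm (wm x.2.2.1), x.2.2.2)
def bX (x : X) : X := (x.1, wm x.2.1, x.2.2.1, wm (wm x.2.2.2))
def fX (x : X) : X := (x.2.2.2, x.1, x.2.1, x.2.2.1)
def fiX (x : X) : X := (x.2.1, x.2.2.1, x.2.2.2, x.1)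
def tX (x : X) : X := (bar x.1, wm (bar x.2.2.2), wm (wm (bar x.2.2.1)), wm (bar x.2.1))

/-- Scalar multiple by an element of the field. -/
def sm (c : F4) (v : X) : X := c.1 • v + c.2 • dX v

/-- The map commuting with the scalars and inverting the cycle, with first column `v`. -/
def hX (v x : X) : X :=
  sm x.1 v + sm x.2.1 (fiX v) + sm x.2.2.1 (fiX (fiX v)) + sm x.2.2.2 (fiX (fiX (fiX v)))

def e1 : X := ((1, 0), 0, 0, 0)
def e2 : X := (0, (1, 0), 0, 0)
def e3 : X := (0, 0, (1, 0), 0)
def e4 : X := (0, 0, 0, (1, 0))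

def c₁ : X := (0, (1, 0), (1, 0), (1, 0))
def c₂ : X := ((1, 0), 0, (1, 0), (1, 0))

/-- The relations in the first case determine the column. -/
theorem unique₁ : ∀ v : X, hX v (hX v e1) = e1 →
    (∀ e ∈ [e1, e2, e3, e4], (fun x => hX v (aX x))^[4] e = e) →
    (∀ e ∈ [e1, e2, e3, e4], (fun x => hX v (aX (bX x)))^[5] e = e) → v = c₁ := by decide +kernel

/-- The relations in the second case determine the column. -/
theorem unique₂ : ∀ v : X, hX v (hX v e1) = e1 →
    (∀ e ∈ [e1, e2, e3, e4], (fun x => hX v (aX x))^[5] e = e) →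
    (∀ e ∈ [e1, e2, e3, e4], (fun x => hX v (aX (bX x)))^[3] e = e) → v = c₂ := by decide +kernel

/-- The coordinates in the tensor model. -/
def toV (x : X) : V :=
  ((x.2.1.1 + x.2.1.2 + x.2.2.2.1, x.1.1 + x.1.2 + x.2.2.1.1,
      x.2.1.1 + x.2.2.2.1 + x.2.2.2.2, x.1.1 + x.2.2.1.1 + x.2.2.1.2),
    (x.2.1.1 + x.2.2.2.2, x.1.1 + x.2.2.1.2, x.2.1.2 + x.2.2.2.1, x.1.2 + x.2.2.1.1))

theorem toV_add (x y : X) : toV (x + y) = toV x + toV y := by
  simp only [toV, Prod.fst_add, Prod.snd_add, Prod.mk_add_mk, Prod.mk.injEq]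
  refine ⟨⟨?_, ?_, ?_, ?_⟩, ?_, ?_, ?_, ?_⟩ <;> abel

theorem toV_eq_zero : ∀ x : X, toV x = 0 → x = 0 := by decide +kernel

theorem x_add_self : ∀ x : X, x + x = 0 := by decide +kernel

theorem toV_bijective : Function.Bijective toV := by
  rw [Fintype.bijective_iff_injective_and_card]
  refine ⟨fun x y h => ?_, rfl⟩
  have h1 : toV (x + y) = 0 := by
    rw [toV_add, h, ← toV_add, x_add_self]
    decide
  calc x = x + (y + y) := by rw [x_add_self, add_zero]
    _ = (x + y) + y := (add_assoc _ _ _).symm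
    _ = y := by rw [toV_eq_zero _ h1, zero_add]

theorem toV_q : ∀ x : X, qV (toV x) = qX x := by decide +kernel

theorem toV_d : ∀ x : X, toV (dX x) = act kD id (toV x) := by decide +kernel

/-- The section of the first factor. -/
def emb (w : W) : X :=
  w.1 • ((0 : F4), ((1, 0) : F4), (0 : F4), ((0, 1) : F4)) +
  w.2.1 • (((1, 0) : F4), (0 : F4), ((0, 1) : F4), (0 : F4)) +
  w.2.2.1 • ((0 : F4), ((0, 1) : F4), (0 : F4), ((1, 0) : F4)) +
  w.2.2.2 • (((0, 1) : F4), (0 : F4), ((1, 0) : F4), (0 : F4))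

/-- The factor of a map in the tensor model. -/
def gOf (M : X → X) (w : W) : W := (toV (M (emb w))).1

def TensorMap (M : X → X) (k : K) : Prop := ∀ x : X, toV (M x) = act k (gOf M) (toV x)

theorem symp_of (g : W → W) (h1 : ∀ u v, g (u + v) = g u + g v)
    (h2 : ∀ u v, om (g u) (g v) = om u v) : Symp g := ⟨h1, h2⟩

theorem symp_a : Symp (gOf aX) := symp_of _ (by decide +kernel) (by decide +kernel)
theorem symp_b : Symp (gOf bX) := symp_of _ (by decide +kernel) (by decide +kernel)
theorem symp_f : Symp (gOf fX) := symp_of _ (by decide +kernel) (by decide +kernel)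
theorem symp_h₁ : Symp (gOf (hX c₁)) := symp_of _ (by decide +kernel) (by decide +kernel)
theorem symp_h₂ : Symp (gOf (hX c₂)) := symp_of _ (by decide +kernel) (by decide +kernel)

theorem tensor_a : TensorMap aX oneK := by unfold TensorMap; decide +kernel
theorem tensor_b : TensorMap bX oneK := by unfold TensorMap; decide +kernel
theorem tensor_f : TensorMap fX oneK := by unfold TensorMap; decide +kernel
theorem tensor_h₁ : TensorMap (hX c₁) oneK := by unfold TensorMap; decide +kernel
theorem tensor_h₂ : TensorMap (hX c₂) oneK := by unfold TensorMap; decide +kernel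

theorem tensor_t : ∀ x : X, toV (tX x) = act kT (tv vc) (toV x) := by decide +kernel

/-- The orbit closure of a list of vectors. -/
def grow (gs : List (W → W)) (l : List W) : List W := (l ++ gs.flatMap fun g => l.map g).eraseDups

def gens (c : X) : List (W → W) := [gOf aX, gOf bX, gOf fX, gOf (hX c)]

theorem orbit₁ : ∀ u : W, u ≠ 0 → u ∈ (grow (gens c₁))^[6] [vc] := by decide +kernel
theorem orbit₂ : ∀ u : W, u ≠ 0 → u ∈ (grow (gens c₂))^[6] [vc] := by decide +kernel

/-- Any property of `vc` closed under the generators holds of every nonzero vector. -/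
theorem orbit_induction {c : X} (hc : ∀ u : W, u ≠ 0 → u ∈ (grow (gens c))^[6] [vc])
    (P : W → Prop) (h0 : P vc) (hs : ∀ g ∈ gens c, ∀ u, P u → P (g u)) : ∀ u, u ≠ 0 → P u := by
  have key : ∀ n, ∀ u ∈ (grow (gens c))^[n] [vc], P u := by
    intro n
    induction n with
    | zero =>
      intro u hu
      simp only [Function.iterate_zero, id_eq, List.mem_singleton] at hu
      exact hu ▸ h0
    | succ n ih =>
      intro u hu
      rw [Function.iterate_succ_apply', grow, List.mem_eraseDups, List.mem_append,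
        List.mem_flatMap] at hu
      rcases hu with hu | ⟨g, hg, hu⟩
      · exact ih u hu
      · obtain ⟨w, hw, rfl⟩ := List.mem_map.1 hu
        exact hs g hg w (ih w hw)
  exact fun u hu => key 6 u (hc u hu)

end Cfsg.Agent.H49.TS
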