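import Cfsg.Agent.H49.TensorSignModel
import Mathlib.GroupTheory.SpecificGroups.Alternating.Simple

/-!
An eight dimensional orthogonal module of the pairs of equal sign in `S₃ × S₆` on which the three
cycle fixes nothing is the tensor module.
-/

set_option autoImplicit false
set_option maxRecDepth 4000
set_option linter.style.haveILetI false

namespace Cfsg.Agent.H49.TS

open Equiv

abbrev S3 : Type := Perm (Fin 3)
abbrev S6 : Type := Perm (Fin 6)

def Even2 (p : S3 × S6) : Prop := Perm.sign p.1 = Perm.sign p.2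

theorem Even2.one : Even2 (1, 1) := by simp [Even2]

theorem Even2.mul {p r : S3 × S6} (hp : Even2 p) (hr : Even2 r) : Even2 (p * r) := by
  simp only [Even2, Prod.fst_mul, Prod.snd_mul, map_mul] at *
  rw [hp, hr]

/-- The data. -/
structure Rep (Vb : Type*) [AddCommGroup Vb] where
  two : ∀ x : Vb, x + x = 0
  card : Nat.card Vb = 256
  ψ : S3 × S6 → AddMonoid.End Vb
  map_one : ψ 1 = 1
  map_mul : ∀ p r, Even2 p → Even2 r → ψ (p * r) = ψ p * ψ r
  faithful : ∀ p, Even2 p → ψ p = 1 → p = 1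
  fpf : ∀ x, ψ (finRotate 3, 1) x = x → x = 0
  q : Vb → ZMod 2
  B : Vb → Vb → ZMod 2
  q_add : ∀ x y, q (x + y) = q x + q y + B x y
  B_add : ∀ x y w, B (x + y) w = B x w + B y w
  nondeg : ∀ x, (∀ y, B x y = 0) → x = 0
  q_inv : ∀ p, Even2 p → ∀ x, q (ψ p x) = q x

theorem pow_three_rot : (finRotate 3) ^ 3 = 1 := by decide +kernel

theorem sign_rot : Perm.sign (finRotate 3) = 1 := by decide +kernel

/-- The elements used in each of the two cases. -/
structure Tup where
  a : S6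
  b : S6
  f : S6
  h : S6
  t : S6

def ga : S6 := swap 0 1 * swap 1 2
def gb : S6 := swap 3 4 * swap 4 5
def gf : S6 := swap 0 3 * swap 3 1 * swap 1 4 * swap 2 5
def gh : S6 := swap 2 5 * swap 3 4

def tup₁ : Tup := ⟨ga, gb, gf, gh, swap 1 2⟩
def tup₂ : Tup := ⟨ga * gb, ga⁻¹ * gb, gf, gh, swap 0 3 * swap 1 5 * swap 2 4⟩

/-- The relations common to the two cases. -/
structure Tup.Ok (T : Tup) : Prop where
  ea : Perm.sign T.a = 1
  eb : Perm.sign T.b = 1
  ef : Perm.sign T.f = 1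
  eh : Perm.sign T.h = 1
  et : Perm.sign T.t = -1
  a3 : T.a ^ 3 = 1
  b3 : T.b ^ 3 = 1
  ab : T.a * T.b = T.b * T.a
  fa : T.a * T.f = T.f * (T.b * T.b)
  fb : T.b * T.f = T.f * T.a
  f4 : T.f ^ 4 = 1
  h2 : T.h * T.h = 1
  hf : T.h * T.f = T.f ^ 3 * T.h
  t2 : T.t * T.t = 1
  ta : T.a * T.t = T.t * (T.a * T.a)
  tb : T.b * T.t = T.t * T.b
  tf : T.t * T.f = T.f * T.f * T.f * T.a * T.b * T.b * T.t

theorem ok₁ : tup₁.Ok := by
  constructor <;> decide +kernel

theorem ok₂ : tup₂.Ok := by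
  constructor <;> decide +kernel

theorem rel₁ : (tup₁.h * tup₁.a) ^ 4 = 1 ∧ (tup₁.h * tup₁.a * tup₁.b) ^ 5 = 1 := by
  decide +kernel

theorem rel₂ : (tup₂.h * tup₂.a) ^ 5 = 1 ∧ (tup₂.h * tup₂.a * tup₂.b) ^ 3 = 1 := by
  decide +kernel

/-! ### Generation -/

def pows9 (a b : S6) : Finset S6 :=
  (Finset.univ : Finset (Fin 3 × Fin 3)).image fun i => a ^ (i.1 : ℕ) * b ^ (i.2 : ℕ)

theorem eq_top_of_mem (a b f r : S6) (h9 : (pows9 a b).card = 9) (h9c : ∀ x ∈ pows9 a b, ∀ y ∈ pows9 a b, x * y ∈ pows9 a b)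
    (hf : orderOf f = 4) (hr : orderOf r = 5) (H : Subgroup S6) (hH : H ≤ alternatingGroup (Fin 6))
    (ha : a ∈ H) (hb : b ∈ H) (hfH : f ∈ H) (hrH : r ∈ H) : H = alternatingGroup (Fin 6) := by
  classical
  have hsub : ∀ x ∈ pows9 a b, x ∈ H := by
    intro x hx
    obtain ⟨i, -, rfl⟩ := Finset.mem_image.1 hx
    exact mul_mem (pow_mem ha _) (pow_mem hb _)
  have h1 : (1 : S6) ∈ pows9 a b := Finset.mem_image.2 ⟨(0, 0), Finset.mem_univ _, by simp⟩
  let M : Submonoid S6 := { carrier := ↑(pows9 a b), one_mem' := h1, mul_mem' := fun {x y} hx hy => h9c x hx y hy }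
  let E : Subgroup S6 :=
    { carrier := ↑(pows9 a b)
      one_mem' := h1
      mul_mem' := fun {x y} hx hy => h9c x hx y hy
      inv_mem' := fun {x} hx => by
        show x⁻¹ ∈ M
        rw [inv_eq_of_mul_eq_one_right (show x * x ^ (orderOf x - 1) = 1 by
          rw [← pow_succ', Nat.sub_add_cancel (orderOf_pos x), pow_orderOf_eq_one])]
        exact pow_mem (show x ∈ M from hx) _ }
  have hE : Nat.card ↥E = 9 := by
    show Nat.card ↥(↑(pows9 a b) : Set S6) = 9
    rw [Nat.card_coe_set_eq, Set.ncard_coe_finset, h9]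
  have d9 : 9 ∣ Nat.card ↥H := hE ▸ Subgroup.card_dvd_of_le (fun x hx => hsub x hx)
  have d4 : 4 ∣ Nat.card ↥H := by
    rw [← hf, ← Nat.card_zpowers]; exact Subgroup.card_dvd_of_le (Subgroup.zpowers_le.2 hfH)
  have d5 : 5 ∣ Nat.card ↥H := by
    rw [← hr, ← Nat.card_zpowers]; exact Subgroup.card_dvd_of_le (Subgroup.zpowers_le.2 hrH)
  have d180 : 180 ∣ Nat.card ↥H :=
    Nat.Coprime.mul_dvd_of_dvd_of_dvd (m := 36) (n := 5) (by norm_num)
      (Nat.Coprime.mul_dvd_of_dvd_of_dvd (by norm_num) d4 d9) d5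
  haveI : Nontrivial (Fin 6) := inferInstance
  have hA : Nat.card ↥(alternatingGroup (Fin 6)) = 360 := by
    rw [nat_card_alternatingGroup, Nat.card_eq_fintype_card, Fintype.card_fin]
    rfl
  have hdvd : Nat.card ↥H ∣ 360 := hA ▸ Subgroup.card_dvd_of_le hH
  let H' : Subgroup ↥(alternatingGroup (Fin 6)) := H.subgroupOf (alternatingGroup (Fin 6))
  have hcH' : Nat.card ↥H' = Nat.card ↥H := Nat.card_congr (Subgroup.subgroupOfEquivOfLe hH).toEquiv
  haveI := alternatingGroup.isSimpleGroup (α := Fin 6) (by simp)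
  have hmul := Subgroup.card_mul_index H'
  rw [hA, hcH'] at hmul
  have hidx : H'.index = 1 := by
    obtain ⟨k, hk⟩ := d180
    rw [hk] at hmul hdvd
    have : k * H'.index = 2 := by nlinarith
    have hk2 : k ≤ 2 := Nat.le_of_dvd two_pos (Dvd.intro _ this)
    interval_cases k
    · omega
    · exfalso
      have hn : H'.Normal := Subgroup.normal_of_index_eq_two (by omega)
      rcases IsSimpleGroup.eq_bot_or_eq_top_of_normal H' hn with e | e
      · rw [e, Subgroup.card_bot] at hcH'; omega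
      · rw [e, Subgroup.index_top] at this; omega
    · omega
  rw [Subgroup.index_eq_one] at hidx
  exact le_antisymm hH (Subgroup.subgroupOf_eq_top.1 hidx)

namespace Rep

variable {Vb : Type*} [AddCommGroup Vb] (R : Rep Vb)

/-- The three cycle. -/
def δ : AddMonoid.End Vb := R.ψ (finRotate 3, 1)

/-- The action of an element of the second factor. -/
def A (s : S6) : AddMonoid.End Vb := R.ψ (1, s)

theorem even_rot : Even2 (finRotate 3, (1 : S6)) := by simp [Even2, sign_rot]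

theorem even_right {s : S6} (hs : Perm.sign s = 1) : Even2 ((1 : S3), s) := by simp [Even2, hs]

theorem A_mul {s r : S6} (hs : Perm.sign s = 1) (hr : Perm.sign r = 1) :
    R.A (s * r) = R.A s * R.A r := by
  rw [A, A, A, ← R.map_mul _ _ (even_right hs) (even_right hr)]
  rw [Prod.mk_mul_mk, one_mul]

theorem A_pow {s : S6} (hs : Perm.sign s = 1) (n : ℕ) : R.A (s ^ n) = R.A s ^ n := by
  induction n with
  | zero => rw [pow_zero, pow_zero, A]; exact R.map_one
  | succ n ih => rw [pow_succ, pow_succ, R.A_mul (by rw [map_pow, hs, one_pow]) hs, ih]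

theorem A_comm_δ {s : S6} (hs : Perm.sign s = 1) : R.A s * R.δ = R.δ * R.A s := by
  rw [A, δ, ← R.map_mul _ _ (even_right hs) even_rot, ← R.map_mul _ _ even_rot (even_right hs)]
  simp

theorem δ_cube (x : Vb) : R.δ (R.δ (R.δ x)) = x := by
  have e : R.δ * (R.δ * R.δ) = 1 := by
    rw [δ, ← R.map_mul _ _ even_rot even_rot,
      ← R.map_mul _ _ even_rot (even_rot.mul even_rot), ← R.map_one]
    congr 1
    refine Prod.ext ?_ (by simp)
    show finRotate 3 * (finRotate 3 * finRotate 3) = 1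
    rw [← pow_three, pow_three_rot]
  exact DFunLike.congr_fun e x

theorem δ_sum (x : Vb) : x + R.δ x + R.δ (R.δ x) = 0 := by
  apply R.fpf
  show R.δ _ = _
  rw [map_add, map_add, R.δ_cube]
  abel

theorem δ_sq (x : Vb) : R.δ (R.δ x) = x + R.δ x := by
  have e := R.δ_sum x
  calc R.δ (R.δ x) = (x + R.δ x) + (x + R.δ x) + R.δ (R.δ x) := by rw [R.two, zero_add]
    _ = (x + R.δ x) + (x + R.δ x + R.δ (R.δ x)) := by abel
    _ = x + R.δ x := by rw [e, add_zero]

/-- `v` is a vector of weight `(1, 0)`. -/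
def Weight (T : Tup) (v : Vb) : Prop := v ≠ 0 ∧ R.A T.a v = R.δ v ∧ R.A T.b v = v

end Rep

end Cfsg.Agent.H49.TS
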